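import Mathlib

/-!
# Cyclic endomorphisms and pole placement

`IsCyc X f z`: `z` generates `V` under `X`, `f` is monic of degree `dim V` and `f(X) z = 0`.

* two endomorphisms cyclic with the same relation are conjugate;
* the characteristic polynomial of `X` is `f`;
* pole placement: if `ker ψ` contains no non-zero `X₀`-invariant subspace then every monic `f` of degree
  `dim V` is the relation of some rank one feedback `X₀ + r ⊗ ψ`.
-/

set_option autoImplicit false

open Polynomial Module

namespace Cfsg.Agent.Lib.Linalg.Lev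

universe u v w

variable {F : Type u} [Field F] {V : Type v} [AddCommGroup V] [Module F V]

/-- `X` is cyclic with generator `z` and relation `f`. -/
structure IsCyc (X : V →ₗ[F] V) (f : F[X]) (z : V) : Prop where
  monic : f.Monic
  natDegree : f.natDegree = finrank F V
  rel : aeval X f z = 0
  gen : ∀ x, ∃ g : F[X], aeval X g z = x

section Basic

variable {X : V →ₗ[F] V} {f : F[X]} {z : V}

theorem aeval_comm_apply (X : V →ₗ[F] V) (g h : F[X]) (x : V) :
    aeval X g (aeval X h x) = aeval X (g * h) x := by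
  rw [map_mul, Module.End.mul_apply]

/-- `f` kills everything. -/
theorem IsCyc.aeval_eq_zero (h : IsCyc X f z) : aeval X f = 0 := by
  refine LinearMap.ext fun x => ?_
  obtain ⟨g, rfl⟩ := h.gen x
  rw [aeval_comm_apply, mul_comm, ← aeval_comm_apply, h.rel, map_zero, LinearMap.zero_apply]

/-- Reduce a generator polynomial modulo `f`. -/
theorem IsCyc.aeval_modByMonic (h : IsCyc X f z) (g : F[X]) :
    aeval X (g %ₘ f) z = aeval X g z := by
  conv_rhs => rw [← modByMonic_add_div g f]
  rw [map_add, LinearMap.add_apply, map_mul, Module.End.mul_apply, h.aeval_eq_zero]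
  simp

/-- The Krylov family. -/
def krylov (X : V →ₗ[F] V) (z : V) (n : ℕ) : Fin n → V := fun k => (X ^ (k : ℕ)) z

theorem aeval_apply_of_natDegree_lt (X : V →ₗ[F] V) (z : V) {r : F[X]} {n : ℕ} (hr : r.natDegree < n) :
    aeval X r z = ∑ k : Fin n, r.coeff k • krylov X z n k := by
  rw [aeval_eq_sum_range' hr, LinearMap.sum_apply, Finset.sum_range]
  rfl

theorem aeval_apply_of_degree_lt (X : V →ₗ[F] V) (z : V) {r : F[X]} {n : ℕ} (hr : r.degree < n) :
    aeval X r z = ∑ k : Fin n, r.coeff k • krylov X z n k := by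
  by_cases h0 : r = 0
  · subst h0; simp
  · refine aeval_apply_of_natDegree_lt X z ?_
    exact (natDegree_lt_iff_degree_lt h0).2 hr

theorem IsCyc.degree_modByMonic_lt (h : IsCyc X f z) (g : F[X]) :
    (g %ₘ f).degree < (finrank F V : ℕ) := by
  have := Polynomial.degree_modByMonic_lt g h.monic
  rwa [degree_eq_natDegree h.monic.ne_zero, h.natDegree] at this

theorem IsCyc.span_krylov (h : IsCyc X f z) :
    Submodule.span F (Set.range (krylov X z (finrank F V))) = ⊤ := by
  refine Submodule.eq_top_iff'.2 fun x => ?_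
  obtain ⟨g, rfl⟩ := h.gen x
  rw [← h.aeval_modByMonic, aeval_apply_of_degree_lt X z (h.degree_modByMonic_lt g)]
  exact Submodule.sum_mem _ fun k _ => Submodule.smul_mem _ _ (Submodule.subset_span ⟨k, rfl⟩)

variable [FiniteDimensional F V]

/-- The Krylov basis. -/
noncomputable def IsCyc.basis (h : IsCyc X f z) : Basis (Fin (finrank F V)) F V :=
  basisOfTopLeSpanOfCardEqFinrank (krylov X z (finrank F V)) h.span_krylov.ge (by simp)

theorem IsCyc.basis_apply (h : IsCyc X f z) (k : Fin (finrank F V)) :
    h.basis k = (X ^ (k : ℕ)) z := by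
  simp [IsCyc.basis, krylov]

/-- A polynomial of small degree vanishing at the generator is zero. -/
theorem IsCyc.eq_zero_of_degree_lt (h : IsCyc X f z) {r : F[X]} (hr : r.degree < (finrank F V : ℕ))
    (h0 : aeval X r z = 0) : r = 0 := by
  rw [aeval_apply_of_degree_lt X z hr] at h0
  have hli := h.basis.linearIndependent
  rw [Fintype.linearIndependent_iff] at hli
  have hc := hli (fun k => r.coeff k) (by
    simpa [krylov, h.basis_apply] using h0)
  ext k
  by_cases hk : k < finrank F V
  · simpa using hc ⟨k, hk⟩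
  · rw [coeff_zero]
    exact coeff_eq_zero_of_degree_lt (lt_of_lt_of_le hr (by exact_mod_cast (not_lt.1 hk)))

/-- The characteristic polynomial of a cyclic endomorphism is its relation. -/
theorem IsCyc.charpoly_eq (h : IsCyc X f z) : X.charpoly = f := by
  have hd : (X.charpoly - f).degree < (finrank F V : ℕ) := by
    have h1 : X.charpoly.degree = f.degree := by
      rw [degree_eq_natDegree X.charpoly_monic.ne_zero, degree_eq_natDegree h.monic.ne_zero,
        LinearMap.charpoly_natDegree, h.natDegree]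
    have hlt := degree_sub_lt_left h1 X.charpoly_monic.ne_zero
      (by rw [X.charpoly_monic.leadingCoeff, h.monic.leadingCoeff])
    rwa [degree_eq_natDegree X.charpoly_monic.ne_zero, LinearMap.charpoly_natDegree] at hlt
  have := h.eq_zero_of_degree_lt hd (by
    rw [map_sub, LinearMap.sub_apply, LinearMap.aeval_self_charpoly, h.rel]
    simp)
  exact sub_eq_zero.1 this

theorem IsCyc.det_eq (h : IsCyc X f z) :
    LinearMap.det X = (-1) ^ finrank F V * f.coeff 0 := by
  rw [← h.charpoly_eq, LinearMap.det_eq_sign_charpoly_coeff]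

variable {V' : Type w} [AddCommGroup V'] [Module F V'] [FiniteDimensional F V']

/-- Two endomorphisms cyclic with the same relation are conjugate. -/
theorem IsCyc.exists_conj {X' : V' →ₗ[F] V'} {z' : V'} (h : IsCyc X f z) (h' : IsCyc X' f z') :
    ∃ e : V ≃ₗ[F] V', ∀ x, e (X x) = X' (e x) := by
  have hdim : finrank F V = finrank F V' := by rw [← h.natDegree, h'.natDegree]
  let b := h.basis
  let b' := h'.basis.reindex (finCongr hdim.symm)
  have hb' : ∀ k : Fin (finrank F V), b' k = (X' ^ (k : ℕ)) z' := by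
    intro k
    simp [b', h'.basis_apply]
  let e : V ≃ₗ[F] V' := b.equiv b' (Equiv.refl _)
  have hek : ∀ k : Fin (finrank F V), e ((X ^ (k : ℕ)) z) = (X' ^ (k : ℕ)) z' := by
    intro k
    rw [← h.basis_apply, ← hb']
    simp [e, b]
  -- polynomials of small degree
  have hep : ∀ r : F[X], r.degree < (finrank F V : ℕ) → e (aeval X r z) = aeval X' r z' := by
    intro r hr
    rw [aeval_apply_of_degree_lt X z hr, aeval_apply_of_degree_lt X' z' hr, map_sum]
    refine Finset.sum_congr rfl fun k _ => ?_
    rw [map_smul]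
    simp only [krylov, hek]
  refine ⟨e, ?_⟩
  -- it suffices to check on the basis
  have hlin : (e : V →ₗ[F] V') ∘ₗ X = X' ∘ₗ (e : V →ₗ[F] V') := by
    refine b.ext fun k => ?_
    simp only [LinearMap.comp_apply, LinearEquiv.coe_coe]
    change e (X (b k)) = X' (e (b k))
    have hbk : b k = (X ^ (k : ℕ)) z := h.basis_apply k
    rw [hbk, hek]
    have h1 : X ((X ^ (k : ℕ)) z) = aeval X ((Polynomial.X : F[X]) ^ ((k : ℕ) + 1)) z := by
      simp [pow_succ']
    have h1' : X' ((X' ^ (k : ℕ)) z') = aeval X' ((Polynomial.X : F[X]) ^ ((k : ℕ) + 1)) z' := by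
      simp [pow_succ']
    rw [h1, h1', ← h.aeval_modByMonic, ← h'.aeval_modByMonic ((Polynomial.X : F[X]) ^ ((k : ℕ) + 1))]
    exact hep _ (h.degree_modByMonic_lt _)
  exact fun x => LinearMap.congr_fun hlin x

end Basic

section PolePlacement

variable [FiniteDimensional F V]

/-- Cayley-Hamilton in the form used below: `X^n x` is a combination of the lower powers. -/
theorem pow_finrank_apply (X : V →ₗ[F] V) (x : V) :
    (X ^ finrank F V) x = -∑ j : Fin (finrank F V), X.charpoly.coeff j • (X ^ (j : ℕ)) x := by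
  have h := LinearMap.aeval_self_charpoly X
  have hn := LinearMap.charpoly_natDegree X
  rw [aeval_eq_sum_range, hn, Finset.sum_range_succ] at h
  have hc : X.charpoly.coeff (finrank F V) = 1 := by
    rw [← hn]; exact X.charpoly_monic.coeff_natDegree
  rw [hc, one_smul] at h
  have h2 := LinearMap.congr_fun h x
  simp only [LinearMap.add_apply, LinearMap.sum_apply, LinearMap.smul_apply, LinearMap.zero_apply] at h2
  rw [Finset.sum_range] at h2
  exact eq_neg_of_add_eq_zero_right h2

/-- The adapted vector for pole placement. -/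
theorem exists_adapted (X₀ : V →ₗ[F] V) (ψ : V →ₗ[F] F)
    (hobs : ∀ P : Submodule F V, (∀ x ∈ P, X₀ x ∈ P) → (∀ x ∈ P, ψ x = 0) → P = ⊥)
    (hn : 0 < finrank F V) :
    ∃ z : V, (∀ k : ℕ, k + 1 < finrank F V → ψ ((X₀ ^ k) z) = 0) ∧
      ψ ((X₀ ^ (finrank F V - 1)) z) = 1 := by
  set n := finrank F V with hndef
  -- the coordinate map
  let L : V →ₗ[F] (Fin n → F) :=
    LinearMap.pi fun k : Fin n => ψ ∘ₗ (X₀ ^ (k : ℕ))
  have hL : ∀ x (k : Fin n), L x k = ψ ((X₀ ^ (k : ℕ)) x) := fun x k => rfl
  have hinj : Function.Injective L := by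
    rw [← LinearMap.ker_eq_bot]
    refine hobs _ ?_ ?_
    · intro x hx
      rw [LinearMap.mem_ker] at hx ⊢
      have hx' : ∀ k : Fin n, ψ ((X₀ ^ (k : ℕ)) x) = 0 := fun k => by
        rw [← hL, hx]; rfl
      funext k
      rw [hL]
      change ψ ((X₀ ^ (k : ℕ)) (X₀ x)) = 0
      rw [← Module.End.mul_apply, ← pow_succ]
      by_cases hk : (k : ℕ) + 1 < n
      · exact hx' ⟨_, hk⟩
      · have hkn : (k : ℕ) + 1 = n := by have := k.2; omega
        rw [hkn, hndef, pow_finrank_apply, map_neg, map_sum, neg_eq_zero]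
        refine Finset.sum_eq_zero fun j _ => ?_
        rw [map_smul, hx' j, smul_zero]
    · intro x hx
      rw [LinearMap.mem_ker] at hx
      have := congr_fun hx ⟨0, hn⟩
      simpa [hL] using this
  have hsurj : Function.Surjective L := by
    refine (LinearMap.injective_iff_surjective_of_finrank_eq_finrank (by simp [hndef])).1 hinj
  obtain ⟨z, hz⟩ := hsurj (fun k => if (k : ℕ) + 1 = n then 1 else 0)
  refine ⟨z, fun k hk => ?_, ?_⟩
  · have := congr_fun hz ⟨k, by omega⟩
    rw [hL] at this
    simpa [show ¬ (k + 1 = n) by omega] using this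
  · have := congr_fun hz ⟨n - 1, by omega⟩
    rw [hL] at this
    simpa [show n - 1 + 1 = n by omega] using this

/-- The feedback `X₀ + r ⊗ ψ`. -/
noncomputable def feedback (X₀ : V →ₗ[F] V) (ψ : V →ₗ[F] F) (r : V) : V →ₗ[F] V :=
  X₀ + ψ.smulRight r

@[simp] theorem feedback_apply (X₀ : V →ₗ[F] V) (ψ : V →ₗ[F] F) (r x : V) :
    feedback X₀ ψ r x = X₀ x + ψ x • r := rfl

/-- Pole placement. -/
theorem exists_pole_placement (X₀ : V →ₗ[F] V) (ψ : V →ₗ[F] F)
    (hobs : ∀ P : Submodule F V, (∀ x ∈ P, X₀ x ∈ P) → (∀ x ∈ P, ψ x = 0) → P = ⊥) :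
    ∃ z : V, ∀ f : F[X], f.Monic → f.natDegree = finrank F V →
      ∃ r : V, IsCyc (feedback X₀ ψ r) f z := by
  classical
  by_cases hn : finrank F V = 0
  · -- the zero space
    have hs : Subsingleton V := finrank_zero_iff.1 hn
    refine ⟨0, fun f hf hd => ⟨0, hf, by rw [hd], by simp, fun x => ⟨0, ?_⟩⟩⟩
    exact Subsingleton.elim _ _
  have hn' : 0 < finrank F V := Nat.pos_of_ne_zero hn
  obtain ⟨z, hz0, hz1⟩ := exists_adapted X₀ ψ hobs hn'
  refine ⟨z, fun f hf hd => ?_⟩
  set n := finrank F V with hndef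
  -- independence of the Krylov family of `X₀`
  have hli : LinearIndependent F (fun k : Fin n => (X₀ ^ (k : ℕ)) z) := by
    rw [Fintype.linearIndependent_iff]
    intro g hg
    have key : ∀ d (k : Fin n), (k : ℕ) + d + 1 = n → g k = 0 := by
      intro d
      induction d using Nat.strong_induction_on with
      | _ d ih =>
        intro k hk
        have h1 : ψ ((X₀ ^ d) (∑ i : Fin n, g i • (X₀ ^ (i : ℕ)) z)) = 0 := by
          rw [hg, map_zero, map_zero]
        rw [map_sum, map_sum, Finset.sum_eq_single k] at h1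
        · rw [map_smul, map_smul, ← Module.End.mul_apply, ← pow_add, smul_eq_mul] at h1
          have h2 : d + (k : ℕ) = n - 1 := by omega
          rw [h2, hz1, mul_one] at h1
          exact h1
        · intro i _ hi
          have hi' : (i : ℕ) ≠ k := fun h => hi (Fin.ext h)
          rcases lt_or_gt_of_ne hi' with hlt | hgt
          · rw [map_smul, map_smul, ← Module.End.mul_apply, ← pow_add, smul_eq_mul,
              hz0 _ (by omega), mul_zero]
          · have hgi : g i = 0 := ih (n - 1 - (i : ℕ)) (by have := i.2; omega) i (by have := i.2; omega)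
            rw [hgi, zero_smul, map_zero, map_zero]
        · simp
    exact fun k => key (n - 1 - (k : ℕ)) k (by have := k.2; omega)
  have hspan : ⊤ ≤ Submodule.span F (Set.range (fun k : Fin n => (X₀ ^ (k : ℕ)) z)) := by
    haveI : Nonempty (Fin n) := ⟨⟨0, hn'⟩⟩
    have := hli.span_eq_top_of_card_eq_finrank (by simp [hndef])
    rw [this]
  -- the feedback vector
  let r : V := -(∑ k : Fin n, f.coeff k • (X₀ ^ (k : ℕ)) z) - (X₀ ^ n) z
  refine ⟨r, ?_⟩
  set X := feedback X₀ ψ r with hX
  -- the powers of `X` on `z`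
  have hpow : ∀ k : ℕ, k < n → (X ^ k) z = (X₀ ^ k) z := by
    intro k
    induction k with
    | zero => intro _; simp
    | succ k ih =>
      intro hk
      rw [pow_succ', Module.End.mul_apply, ih (by omega), hX, feedback_apply, hz0 k hk, zero_smul,
        add_zero, ← Module.End.mul_apply, ← pow_succ']
  have hpown : (X ^ n) z = (X₀ ^ n) z + r := by
    have hn1 : n = (n - 1) + 1 := by omega
    conv_lhs => rw [hn1]
    rw [pow_succ', Module.End.mul_apply, hpow _ (by omega), hX, feedback_apply, hz1, one_smul,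
      ← Module.End.mul_apply, ← pow_succ', ← hn1]
  refine ⟨hf, hd, ?_, fun x => ?_⟩
  · rw [aeval_eq_sum_range, hd, Finset.sum_range_succ]
    have hc : f.coeff n = 1 := by rw [← hd]; exact hf.coeff_natDegree
    rw [hc, one_smul, LinearMap.add_apply, LinearMap.sum_apply, hpown, Finset.sum_range]
    have hsum : ∑ x : Fin n, (f.coeff (x : ℕ) • X ^ (x : ℕ)) z = ∑ k : Fin n, f.coeff k • (X₀ ^ (k : ℕ)) z := by
      refine Finset.sum_congr rfl fun k _ => ?_
      rw [LinearMap.smul_apply, hpow _ k.2]
    rw [hsum]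
    simp only [r]
    abel
  · have hx : x ∈ Submodule.span F (Set.range (fun k : Fin n => (X₀ ^ (k : ℕ)) z)) := hspan trivial
    obtain ⟨c, hc⟩ := (Submodule.mem_span_range_iff_exists_fun F).1 hx
    refine ⟨∑ k : Fin n, Polynomial.C (c k) * (Polynomial.X : F[X]) ^ (k : ℕ), ?_⟩
    rw [map_sum, LinearMap.sum_apply, ← hc]
    refine Finset.sum_congr rfl fun k _ => ?_
    rw [map_mul, aeval_C, map_pow, aeval_X, Module.End.mul_apply, hpow _ k.2]
    rfl

end PolePlacement

end Cfsg.Agent.Lib.Linalg.Lev
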