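import Mathlib
import Cfsg.Agent.Lib.Linalg.Lev.Cyc

/-!
# Factorization of an endomorphism into two cyclic endomorphisms

`exists_factor`: under hypotheses on a hyperplane `ker φ`, a map `X₁` and a functional `ψ`,
an invertible `T` factors as `T = B D⁻¹` with `B` cyclic with any prescribed relation `f` and `D` cyclic
with relation `(X - κ) p` for any prescribed `p`, `κ` (subject to the determinant condition).
-/

set_option autoImplicit false

open Polynomial Module

namespace Cfsg.Agent.Lib.Linalg.Lev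

universe u v

variable {F : Type u} [Field F] {V : Type v} [AddCommGroup V] [Module F V]

theorem aeval_intertwine {V' : Type*} [AddCommGroup V'] [Module F V'] (L : V →ₗ[F] V')
    (X : V →ₗ[F] V) (X' : V' →ₗ[F] V') (h : ∀ x, L (X x) = X' (L x)) (g : F[X]) (x : V) :
    L (aeval X g x) = aeval X' g (L x) := by
  induction g using Polynomial.induction_on' generalizing x with
  | add p q hp hq => simp only [map_add, LinearMap.add_apply, hp, hq]
  | monomial n a =>
    have hpow : ∀ (m : ℕ) (w : V), L ((X ^ m) w) = (X' ^ m) (L w) := by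
      intro m
      induction m with
      | zero => intro w; simp
      | succ m ih =>
        intro w
        rw [pow_succ', Module.End.mul_apply, h, ih, pow_succ', Module.End.mul_apply]
    simp only [aeval_monomial, Module.End.mul_apply]
    have h1 : ∀ (y : V), (algebraMap F (V →ₗ[F] V) a) y = a • y := fun y => rfl
    have h2 : ∀ (y : V'), (algebraMap F (V' →ₗ[F] V') a) y = a • y := fun y => rfl
    rw [h1, h2, map_smul, hpow]

section Hyperplane

variable [FiniteDimensional F V]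

theorem finrank_ker_add_one (φ : V →ₗ[F] F) (e₀ : V) (he₀ : φ e₀ = 1) :
    finrank F (LinearMap.ker φ) + 1 = finrank F V := by
  have hs : Function.Surjective φ := fun a => ⟨a • e₀, by simp [he₀]⟩
  have h := LinearMap.finrank_range_add_finrank_ker φ
  rw [LinearMap.range_eq_top.2 hs, finrank_top, finrank_self] at h
  omega

/-- Determinant of an endomorphism preserving a hyperplane. -/
theorem det_of_hyperplane (D : V →ₗ[F] V) (φ : V →ₗ[F] F) (e₀ : V) (he₀ : φ e₀ = 1)
    (hD : ∀ x ∈ LinearMap.ker φ, D x ∈ LinearMap.ker φ) :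
    LinearMap.det D = LinearMap.det (D.restrict hD) * φ (D e₀) := by
  classical
  set H := LinearMap.ker φ with hH
  have hle : H ≤ H.comap D := hD
  have hdet := D.det_eq_det_mul_det H hle
  have hs : Function.Surjective φ := fun a => ⟨a • e₀, by simp [he₀]⟩
  have hq : H.mapQ H D hle = φ (D e₀) • LinearMap.id := by
    refine LinearMap.ext fun x => ?_
    induction x using Submodule.Quotient.induction_on with
    | _ w =>
      rw [Submodule.mapQ_apply, LinearMap.smul_apply, LinearMap.id_apply, ← Submodule.Quotient.mk_smul,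
        Submodule.Quotient.eq]
      -- `w = φ w • e₀ + h`
      have hw : w - φ w • e₀ ∈ H := by
        rw [hH, LinearMap.mem_ker, map_sub, map_smul, he₀, smul_eq_mul, mul_one, sub_self]
      have h1 := hD _ hw
      rw [LinearMap.mem_ker, map_sub, map_sub, map_smul, map_smul, smul_eq_mul] at h1
      rw [hH, LinearMap.mem_ker, map_sub, map_smul, smul_eq_mul]
      linear_combination h1
  have hfin : finrank F (V ⧸ H) = 1 := by
    have e := LinearMap.quotKerEquivOfSurjective φ hs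
    rw [e.finrank_eq, finrank_self]
  have hres : LinearMap.det (D.restrict hD) = LinearMap.det (D.restrict hle) := rfl
  rw [hdet, hq, LinearMap.det_smul, hfin, pow_one, LinearMap.det_id, mul_one, hres]

/-- The restriction of a polynomial in `D`. -/
theorem coe_aeval_restrict (H : Submodule F V) (D : V →ₗ[F] V) (hD : ∀ x ∈ H, D x ∈ H) (g : F[X])
    (x : H) : ((aeval (D.restrict hD) g x : H) : V) = aeval D g (x : V) :=
  aeval_intertwine H.subtype (D.restrict hD) D (fun _ => rfl) g x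

/-- An endomorphism with a cyclic restriction to a hyperplane and a further simple eigenvalue is
cyclic. -/
theorem isCyc_of_hyperplane (D : V →ₗ[F] V) (φ : V →ₗ[F] F) (e' : V) (κ : F) (he' : φ e' = 1)
    (hDe : D e' = κ • e') (hD : ∀ x ∈ LinearMap.ker φ, D x ∈ LinearMap.ker φ)
    {p : F[X]} {z₂ : LinearMap.ker φ} (hcyc : IsCyc (D.restrict hD) p z₂) (hκ : p.eval κ ≠ 0) :
    ∃ z₀ : V, IsCyc D ((X - C κ) * p) z₀ := by
  classical
  have hmonic : ((X - C κ) * p).Monic := (monic_X_sub_C κ).mul hcyc.monic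
  have hdeg : ((X - C κ) * p).natDegree = finrank F V := by
    rw [(monic_X_sub_C κ).natDegree_mul hcyc.monic, natDegree_X_sub_C, hcyc.natDegree, add_comm]
    exact finrank_ker_add_one φ e' he'
  -- `R - κ` is bijective
  have hinj : Function.Injective (D.restrict hD - κ • (1 : LinearMap.ker φ →ₗ[F] LinearMap.ker φ)) := by
    rw [← LinearMap.ker_eq_bot, LinearMap.ker_eq_bot']
    intro x hx
    have hx' : D.restrict hD x = κ • x := by
      have : D.restrict hD x - κ • x = 0 := hx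
      exact sub_eq_zero.1 this
    have h1 : aeval (D.restrict hD) p x = p.eval κ • x :=
      Module.End.aeval_apply_of_mem_apply_eq_smul hx'
    rw [hcyc.aeval_eq_zero, LinearMap.zero_apply] at h1
    exact (smul_eq_zero.1 h1.symm).resolve_left hκ
  have hsurj := LinearMap.injective_iff_surjective.1 hinj
  obtain ⟨z₄, hz₄⟩ := hsurj z₂
  have hz₄' : D (z₄ : V) - κ • (z₄ : V) = (z₂ : V) := by
    have := congrArg (fun y : LinearMap.ker φ => (y : V)) hz₄
    simpa [LinearMap.restrict_apply] using this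
  obtain ⟨z₀, hz₀def⟩ : ∃ z₀ : V, z₀ = e' + z₄ := ⟨_, rfl⟩
  have hz₀ : aeval D (X - C κ : F[X]) z₀ = z₂ := by
    have h2 : ∀ y : V, (algebraMap F (V →ₗ[F] V) κ) y = κ • y := fun y => rfl
    simp only [map_sub, aeval_X, aeval_C, LinearMap.sub_apply, hz₀def, map_add, hDe, h2]
    rw [← hz₄']
    abel
  -- polynomial multiples of `z₂` are polynomial multiples of `z₀`
  have hmul : ∀ g : F[X], aeval D (g * (X - C κ)) z₀ = aeval D g (z₂ : V) := by
    intro g
    rw [← aeval_comm_apply, hz₀]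
  have hHgen : ∀ y : LinearMap.ker φ, ∃ g : F[X], aeval D (g * (X - C κ)) z₀ = (y : V) := by
    intro y
    obtain ⟨g, hg⟩ := hcyc.gen y
    refine ⟨g, ?_⟩
    rw [hmul, ← coe_aeval_restrict _ D hD, hg]
  refine ⟨z₀, hmonic, hdeg, ?_, fun x => ?_⟩
  · rw [mul_comm, hmul, ← coe_aeval_restrict _ D hD, hcyc.rel]
    rfl
  · -- decompose `x`
    have hx : x - φ x • e' ∈ LinearMap.ker φ := by
      rw [LinearMap.mem_ker, map_sub, map_smul, he', smul_eq_mul, mul_one, sub_self]
    obtain ⟨g, hg⟩ := hHgen ⟨_, hx⟩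
    obtain ⟨g₄, hg₄⟩ := hHgen z₄
    refine ⟨g * (X - C κ) + C (φ x) * (1 - g₄ * (X - C κ)), ?_⟩
    rw [map_add, LinearMap.add_apply, hg, map_mul, Module.End.mul_apply, aeval_C, map_sub,
      LinearMap.sub_apply, hg₄, map_one, Module.End.one_apply]
    have h2 : ∀ y : V, (algebraMap F (V →ₗ[F] V) (φ x)) y = φ x • y := fun y => rfl
    rw [h2]
    rw [hz₀def, add_sub_cancel_right]
    change x - φ x • e' + φ x • e' = x
    abel

/-- The main factorization. -/
theorem exists_factor (T : V ≃ₗ[F] V) (φ ψ : V →ₗ[F] F) (e₀ : V) (he₀ : φ e₀ = 1) (X₁ : V →ₗ[F] V)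
    (hX₁ : ∀ x, φ (X₁ x) = 0)
    (h1 : ∀ P : Submodule F V, P ≤ LinearMap.ker φ → (∀ x ∈ P, X₁ x ∈ P) → (∀ x ∈ P, ψ x = 0) → P = ⊥)
    (h2 : ∀ x, φ x = 0 → ψ (T x) = 0)
    (h3 : ∀ P : Submodule F V, P ≤ LinearMap.ker φ → P ≤ LinearMap.ker ψ → (∀ x ∈ P, T (X₁ x) ∈ P) → P = ⊥)
    (p : F[X]) (hp : p.Monic) (hpd : p.natDegree + 1 = finrank F V) (hp0 : p.coeff 0 ≠ 0) (κ : F)
    (hκp : p.eval κ ≠ 0)
    (f : F[X]) (hf : f.Monic) (hfd : f.natDegree = finrank F V)
    (hdet : (-1) ^ finrank F V * f.coeff 0 =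
      LinearMap.det (T : V →ₗ[F] V) * ((-1) ^ p.natDegree * p.coeff 0 * κ)) :
    ∃ (B D : V →ₗ[F] V) (z z₀ e' : V), (∀ x, B x = T (D x)) ∧ IsCyc B f z ∧
      IsCyc D ((X - C κ) * p) z₀ ∧ D e' = κ • e' ∧ φ e' = 1 ∧ (∀ x, φ x = 0 → φ (D x) = 0) := by
  classical
  set H := LinearMap.ker φ with hH
  have hdimH : p.natDegree = finrank F H := by
    have : finrank F H + 1 = finrank F V := finrank_ker_add_one φ e₀ he₀
    omega
  have hH1 : ∀ x ∈ H, X₁ x ∈ H := fun x _ => hX₁ x
  let R₀ : H →ₗ[F] H := X₁.restrict hH1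
  let ψH : H →ₗ[F] F := ψ ∘ₗ H.subtype
  have hobs1 : ∀ Q : Submodule F H, (∀ x ∈ Q, R₀ x ∈ Q) → (∀ x ∈ Q, ψH x = 0) → Q = ⊥ := by
    intro Q hQ1 hQ2
    have hP := h1 (Q.map H.subtype) (Submodule.map_subtype_le _ _)
      (by
        rintro _ ⟨y, hy, rfl⟩
        exact ⟨R₀ y, hQ1 y hy, rfl⟩)
      (by
        rintro _ ⟨y, hy, rfl⟩
        exact hQ2 y hy)
    rw [eq_bot_iff]
    intro x hx
    have : (x : V) ∈ Q.map H.subtype := ⟨x, hx, rfl⟩
    rw [hP, Submodule.mem_bot] at this
    exact (Submodule.mem_bot F).2 (Subtype.ext this)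
  obtain ⟨z₂, hz₂⟩ := exists_pole_placement R₀ ψH hobs1
  obtain ⟨r₂, hr₂⟩ := hz₂ p hp hdimH
  set R := feedback R₀ ψH r₂ with hR
  have hRx : ∀ x : H, ψ x = 0 → ((R x : H) : V) = X₁ x := by
    intro x hx
    have : R x = R₀ x + ψH x • r₂ := rfl
    have hx' : ψH x = 0 := hx
    rw [this, hx', zero_smul, add_zero]
    rfl
  have hRinj : Function.Injective R := by
    rw [← LinearMap.ker_eq_bot, LinearMap.ker_eq_bot']
    intro x hx
    have h0 := LinearMap.congr_fun hr₂.aeval_eq_zero x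
    conv at h0 => lhs; rw [← divX_mul_X_add p]
    rw [map_add, LinearMap.add_apply, map_mul, Module.End.mul_apply, aeval_X, hx, map_zero, zero_add,
      aeval_C, LinearMap.zero_apply] at h0
    have h2' : (algebraMap F (H →ₗ[F] H) (p.coeff 0)) x = p.coeff 0 • x := rfl
    rw [h2'] at h0
    exact (smul_eq_zero.1 h0).resolve_left hp0
  -- the projection to `H`
  let πH : V →ₗ[F] H := LinearMap.codRestrict H (LinearMap.id - φ.smulRight e₀) (by
    intro x
    simp [hH, he₀])
  have hπ : ∀ x : V, ((πH x : H) : V) = x - φ x • e₀ := fun x => rfl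
  have hπH : ∀ x (hx : x ∈ H), πH x = ⟨x, hx⟩ := by
    intro x hx
    apply Subtype.ext
    have hx' : φ x = 0 := hx
    simp [hπ, hx']
  let D₀ : V →ₗ[F] V := H.subtype ∘ₗ R ∘ₗ πH + φ.smulRight (κ • e₀)
  have hD₀ : ∀ x (hx : x ∈ H), D₀ x = ((R ⟨x, hx⟩ : H) : V) := by
    intro x hx
    have hx' : φ x = 0 := hx
    simp [D₀, hπH x hx, hx']
  let B₀ : V →ₗ[F] V := (T : V →ₗ[F] V) ∘ₗ D₀
  have hobs2 : ∀ P : Submodule F V, (∀ x ∈ P, B₀ x ∈ P) → (∀ x ∈ P, φ x = 0) → P = ⊥ := by
    intro P hP1 hP2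
    have hPH : P ≤ H := fun x hx => hP2 x hx
    -- `B₀` is bijective on `P`
    let g : P →ₗ[F] P := B₀.restrict hP1
    have hg : Function.Injective g := by
      rw [← LinearMap.ker_eq_bot, LinearMap.ker_eq_bot']
      rintro ⟨x, hx⟩ hgx
      have h0 : B₀ x = 0 := congrArg Subtype.val hgx
      have h0' : T (D₀ x) = 0 := h0
      have h3' : D₀ x = 0 := by simpa using h0'
      rw [hD₀ x (hPH hx)] at h3'
      have h4 : R ⟨x, hPH hx⟩ = 0 := Subtype.ext h3'
      have h5 : (⟨x, hPH hx⟩ : H) = 0 := by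
        apply hRinj
        rw [h4, map_zero]
      have h6 : x = 0 := congrArg Subtype.val h5
      exact Subtype.ext h6
    have hgs : Function.Surjective g := LinearMap.injective_iff_surjective.1 hg
    have hPψ : P ≤ LinearMap.ker ψ := by
      intro y hy
      obtain ⟨⟨x, hx⟩, hxy⟩ := hgs ⟨y, hy⟩
      have hy' : y = T (D₀ x) := (congrArg Subtype.val hxy).symm
      rw [LinearMap.mem_ker, hy']
      apply h2
      rw [hD₀ x (hPH hx)]
      exact (R _).2
    refine h3 P hPH hPψ fun x hx => ?_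
    have h5 : B₀ x = T (X₁ x) := by
      change T (D₀ x) = _
      rw [hD₀ x (hPH hx), hRx ⟨x, hPH hx⟩ (hPψ hx)]
    rw [← h5]
    exact hP1 x hx
  obtain ⟨z, hz⟩ := exists_pole_placement B₀ φ hobs2
  obtain ⟨v, hv⟩ := hz f hf hfd
  set B := feedback B₀ φ v with hB
  let D : V →ₗ[F] V := (T.symm : V →ₗ[F] V) ∘ₗ B
  have hBD : ∀ x, B x = T (D x) := fun x => by simp [D]
  have hDH : ∀ x (hx : x ∈ H), D x = ((R ⟨x, hx⟩ : H) : V) := by
    intro x hx
    have hx' : φ x = 0 := hx
    simp only [D, LinearMap.comp_apply, LinearEquiv.coe_coe, hB, feedback_apply, hx', zero_smul, add_zero]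
    change T.symm (T (D₀ x)) = _
    rw [T.symm_apply_apply, hD₀ x hx]
  have hDinv : ∀ x ∈ H, D x ∈ H := by
    intro x hx
    rw [hDH x hx]
    exact (R _).2
  have hrest : D.restrict hDinv = R := by
    refine LinearMap.ext fun x => Subtype.ext ?_
    rw [LinearMap.coe_restrict_apply, hDH x x.2]
  -- the eigenvalue on the quotient
  have hdetT : LinearMap.det (T : V →ₗ[F] V) ≠ 0 := (LinearEquiv.isUnit_det' T).ne_zero
  have hκ' : φ (D e₀) = κ := by
    have h5 := det_of_hyperplane D φ e₀ he₀ hDinv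
    rw [hrest] at h5
    have h6 : LinearMap.det B = LinearMap.det (T : V →ₗ[F] V) * LinearMap.det D := by
      rw [← LinearMap.det_comp]
      congr 1
      exact LinearMap.ext hBD
    have h7 := hv.det_eq
    have h8 := hr₂.det_eq
    rw [← hdimH] at h8
    rw [h6, h5, h8, hdet] at h7
    have h9 := mul_left_cancel₀ hdetT h7
    have h10 : (-1 : F) ^ p.natDegree * p.coeff 0 ≠ 0 :=
      mul_ne_zero (pow_ne_zero _ (by simp)) hp0
    exact mul_left_cancel₀ h10 h9
  -- the eigenvector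
  have hinj : Function.Injective (R - κ • (1 : H →ₗ[F] H)) := by
    rw [← LinearMap.ker_eq_bot, LinearMap.ker_eq_bot']
    intro x hx
    have hx' : R x = κ • x := sub_eq_zero.1 hx
    have h1' : aeval R p x = p.eval κ • x :=
      Module.End.aeval_apply_of_mem_apply_eq_smul hx'
    rw [hr₂.aeval_eq_zero, LinearMap.zero_apply] at h1'
    exact (smul_eq_zero.1 h1'.symm).resolve_left hκp
  have hsurj : Function.Surjective (R - κ • (1 : H →ₗ[F] H)) :=
    LinearMap.injective_iff_surjective.1 hinj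
  have hmem : κ • e₀ - D e₀ ∈ H := by
    rw [hH, LinearMap.mem_ker, map_sub, map_smul, he₀, hκ', smul_eq_mul, mul_one, sub_self]
  obtain ⟨h, hh⟩ := hsurj ⟨_, hmem⟩
  have hh' : D (h : V) - κ • (h : V) = κ • e₀ - D e₀ := by
    have := congrArg (fun y : H => (y : V)) hh
    rw [hDH _ h.2]
    simpa using this
  have hDe : D (e₀ + h) = κ • (e₀ + h) := by
    rw [map_add, smul_add]
    rw [sub_eq_iff_eq_add] at hh'
    rw [hh']
    abel
  have hφe : φ (e₀ + h) = 1 := by
    have : φ (h : V) = 0 := h.2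
    rw [map_add, he₀, this, add_zero]
  obtain ⟨z₀, hz₀⟩ := isCyc_of_hyperplane D φ (e₀ + h) κ hφe hDe hDinv (p := p) (z₂ := z₂)
    (by rw [hrest]; exact hr₂) hκp
  exact ⟨B, D, z, z₀, e₀ + h, hBD, hv, hz₀, hDe, hφe, fun x hx => hDinv x hx⟩

end Hyperplane

end Cfsg.Agent.Lib.Linalg.Lev
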