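import Mathlib
import Cfsg.Agent.Lib.Linalg.Lev.Factor

/-!
# Chain data of a cyclic endomorphism and the combinatorial data of a general endomorphism

`Chain X σ ω ϖ c e`: `σ` is a one-sided inverse of the cyclic endomorphism `X` with defect `ω ⊗ c`,
nilpotent, and `ϖ` detects the complement of its range.

`Data Y s τ t`: the data needed of the part of the space outside the distinguished cyclic summand.
-/

set_option autoImplicit false

open Polynomial Module

namespace Cfsg.Agent.Lib.Linalg.Lev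

universe u v w

variable {F : Type u} [Field F]

section ChainDef

variable {E : Type v} [AddCommGroup E] [Module F E]

/-- The chain data of an endomorphism. -/
structure Chain (X σ : E →ₗ[F] E) (ω ϖ : E →ₗ[F] F) (c e : E) : Prop where
  rel : ∀ x, X (σ x) = x - ω x • c
  σc : σ c = 0
  ωc : ω c = 1
  nil : ∃ N : ℕ, σ ^ N = 0
  ϖσ : ∀ x, ϖ (σ x) = 0
  ϖe : ϖ e = 1
  surj : ∀ u, ϖ u = 0 → ∃ v, σ v = u

/-- A generator gives the relation given by the characteristic polynomial. -/
theorem isCyc_charpoly [FiniteDimensional F E] {X : E →ₗ[F] E} {z : E}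
    (hgen : ∀ x, ∃ g : F[X], aeval X g z = x) : IsCyc X X.charpoly z :=
  ⟨X.charpoly_monic, LinearMap.charpoly_natDegree X, by
    rw [LinearMap.aeval_self_charpoly, LinearMap.zero_apply], hgen⟩

/-- Existence of chain data. -/
theorem exists_chain [FiniteDimensional F E] (X : E →ₗ[F] E) (z : E)
    (hgen : ∀ x, ∃ g : F[X], aeval X g z = x) (hm : 0 < finrank F E) :
    ∃ (σ : E →ₗ[F] E) (ω ϖ : E →ₗ[F] F) (c e : E), Chain X σ ω ϖ c e ∧
      (2 ≤ finrank F E → ϖ c = 0) ∧ (finrank F E = 2 → ∀ u, ω u = 0 → ϖ u = 0 → u = 0) := by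
  classical
  have hc := isCyc_charpoly hgen
  set m := finrank F E with hmdef
  let b : Basis (Fin m) F E := hc.basis
  have hb : ∀ k : Fin m, b k = (X ^ (k : ℕ)) z := hc.basis_apply
  let i₀ : Fin m := ⟨0, hm⟩
  let l : Fin m := ⟨m - 1, by omega⟩
  let σ : E →ₗ[F] E := b.constr F (fun k : Fin m => if h : (k : ℕ) = 0 then (0 : E) else b ⟨k - 1, by omega⟩)
  let up : E →ₗ[F] E := b.constr F (fun k : Fin m => if h : (k : ℕ) + 1 < m then b ⟨k + 1, h⟩ else 0)
  have hσ0 : ∀ k : Fin m, (k : ℕ) = 0 → σ (b k) = 0 := by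
    intro k hk
    change (b.constr F _) (b k) = 0
    rw [Basis.constr_basis, dif_pos hk]
  have hσ1 : ∀ (k : Fin m) (h : (k : ℕ) + 1 < m), σ (b ⟨k + 1, h⟩) = b k := by
    intro k h
    change (b.constr F _) (b _) = _
    rw [Basis.constr_basis, dif_neg (by simp)]
    simp
  have hup1 : ∀ (k : Fin m) (h : (k : ℕ) + 1 < m), up (b k) = b ⟨k + 1, h⟩ := by
    intro k h
    change (b.constr F _) (b _) = _
    rw [Basis.constr_basis, dif_pos h]
  have hup0 : ∀ (k : Fin m), ¬ ((k : ℕ) + 1 < m) → up (b k) = 0 := by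
    intro k h
    change (b.constr F _) (b _) = _
    rw [Basis.constr_basis, dif_neg h]
  have hsucc : ∀ (k : Fin m), (k : ℕ) ≠ 0 → ∃ j : Fin m, ∃ h : (j : ℕ) + 1 < m, k = ⟨j + 1, h⟩ := by
    intro k hk
    have hk' := k.2
    exact ⟨⟨k - 1, by omega⟩, by simp; omega, by ext; simp; omega⟩
  refine ⟨σ, b.coord i₀, b.coord l, b i₀, b l, ⟨?_, ?_, ?_, ?_, ?_, ?_, ?_⟩, ?_, ?_⟩
  · -- the relation
    intro x
    have : X ∘ₗ σ = LinearMap.id - (b.coord i₀).smulRight (b i₀) := by
      refine b.ext fun k => ?_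
      simp only [LinearMap.comp_apply, LinearMap.sub_apply, LinearMap.id_apply,
        LinearMap.smulRight_apply]
      by_cases hk : (k : ℕ) = 0
      · have hki : k = i₀ := Fin.ext hk
        rw [hσ0 k hk, map_zero, hki]
        simp
      · obtain ⟨j, h, rfl⟩ := hsucc k hk
        have hX : X (b j) = b ⟨j + 1, h⟩ := by
          rw [hb j, hb ⟨j + 1, h⟩, ← Module.End.mul_apply, ← pow_succ']
        rw [hσ1 j h, hX]
        have hne : (⟨(j : ℕ) + 1, h⟩ : Fin m) ≠ i₀ := by
          intro heq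
          have := congrArg Fin.val heq
          simp [i₀] at this
        simp [Basis.coord_apply, Finsupp.single_apply, hne]
    exact LinearMap.congr_fun this x
  · exact hσ0 i₀ rfl
  · simp
  · -- nilpotent
    refine ⟨m, b.ext fun k => ?_⟩
    have key : ∀ (j : ℕ) (hj : j < m), (σ ^ (j + 1)) (b ⟨j, hj⟩) = 0 := by
      intro j
      induction j with
      | zero =>
        intro hj
        rw [pow_one]
        exact hσ0 _ rfl
      | succ j ih =>
        intro hj
        rw [pow_succ, Module.End.mul_apply]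
        have := hσ1 ⟨j, by omega⟩ hj
        rw [this]
        exact ih _
    have hk := k.2
    have hle : σ ^ m = σ ^ (m - ((k : ℕ) + 1)) * σ ^ ((k : ℕ) + 1) := by
      rw [← pow_add]
      congr 1
      omega
    rw [hle, Module.End.mul_apply, key k k.2, map_zero, LinearMap.zero_apply]
  · intro x
    have : (b.coord l) ∘ₗ σ = 0 := by
      refine b.ext fun k => ?_
      simp only [LinearMap.comp_apply, LinearMap.zero_apply]
      by_cases hk : (k : ℕ) = 0
      · rw [hσ0 k hk, map_zero]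
      · obtain ⟨j, h, rfl⟩ := hsucc k hk
        rw [hσ1 j h]
        have hne : j ≠ l := by
          intro heq
          have := congrArg Fin.val heq
          simp [l] at this
          omega
        simp [Basis.coord_apply, Finsupp.single_apply, hne]
    exact LinearMap.congr_fun this x
  · simp
  · intro u hu
    refine ⟨up u, ?_⟩
    have : σ ∘ₗ up = LinearMap.id - (b.coord l).smulRight (b l) := by
      refine b.ext fun k => ?_
      simp only [LinearMap.comp_apply, LinearMap.sub_apply, LinearMap.id_apply,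
        LinearMap.smulRight_apply]
      by_cases hk : (k : ℕ) + 1 < m
      · rw [hup1 k hk, hσ1 k hk]
        have hne : k ≠ l := by
          intro heq
          have := congrArg Fin.val heq
          simp [l] at this
          omega
        simp [Basis.coord_apply, Finsupp.single_apply, hne]
      · have hkl : k = l := by
          ext
          have := k.2
          simp [l]
          omega
        rw [hup0 k hk, map_zero, hkl]
        simp
    have h1 := LinearMap.congr_fun this u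
    simp only [LinearMap.comp_apply, LinearMap.sub_apply, LinearMap.id_apply,
      LinearMap.smulRight_apply] at h1
    rw [h1, hu, zero_smul, sub_zero]
  · intro h2
    have hne : i₀ ≠ l := by
      intro heq
      have := congrArg Fin.val heq
      simp [i₀, l] at this
      omega
    simp [Basis.coord_apply, Finsupp.single_apply, hne.symm, hne]
  · intro h2 u hu1 hu2
    apply b.ext_elem
    intro k
    have hk := k.2
    by_cases hk0 : (k : ℕ) = 0
    · have : k = i₀ := Fin.ext hk0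
      rw [this]
      simpa [Basis.coord_apply] using hu1
    · have : k = l := by
        ext
        simp [l]
        omega
      rw [this]
      simpa [Basis.coord_apply] using hu2

end ChainDef

section DataDef

variable {W : Type v} [AddCommGroup W] [Module F W]

/-- The data of the complement of the distinguished cyclic summand. -/
structure Data (Y s : W →ₗ[F] W) (τ : W →ₗ[F] F) (t : F) : Prop where
  d1 : ∀ x, s x = 0 → τ x = 0 → x = 0
  nil : ∃ N : ℕ, s ^ N = 0
  eig : ∀ x, Y (s x) = t • x → τ x = 0 → x = 0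
  kill : ∃ a b : ℕ, aeval (Y ∘ₗ s) ((X : F[X]) ^ a * (X - C t) ^ b) = 0
  fix : t ≠ 1 → ∀ x, Y (s x) = x → x = 0

/-- The data of a block, with its attaching vector. -/
structure Block (Y s : W →ₗ[F] W) (τ : W →ₗ[F] F) (t : F) (a : W) : Prop extends Data Y s τ t where
  b1 : ∀ (ξ : F) (x : W), s x + ξ • a = 0 → τ x = 0 → ξ = 0 ∧ x = 0
  b2 : ∀ (ξ : F) (x : W), Y (s x) + ξ • Y a = t • x → τ x = 0 → ξ = 0 ∧ x = 0

/-- The zero space. -/
theorem data_of_subsingleton [Subsingleton W] (Y : W →ₗ[F] W) (t : F) : Data Y 0 0 t where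
  d1 _ _ _ := Subsingleton.elim _ _
  nil := ⟨1, Subsingleton.elim _ _⟩
  eig _ _ _ := Subsingleton.elim _ _
  kill := ⟨1, 0, Subsingleton.elim _ _⟩
  fix _ _ _ := Subsingleton.elim _ _

/-- Invariant subspaces in `ker τ` vanish. -/
theorem Data.adm {Y s : W →ₗ[F] W} {τ : W →ₗ[F] F} {t : F} (h : Data Y s τ t)
    (hY : Function.Injective Y) (Q : Submodule F W) (hQ : ∀ x ∈ Q, Y (s x) ∈ Q)
    (hτ : ∀ x ∈ Q, τ x = 0) : Q = ⊥ := by
  obtain ⟨a, b, hk⟩ := h.kill
  set Rh : W →ₗ[F] W := Y ∘ₗ s with hRh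
  have hRhapp : ∀ x, Rh x = Y (s x) := fun _ => rfl
  have hinj : ∀ x ∈ Q, Rh x = 0 → x = 0 := by
    intro x hx h0
    have h1 : s x = 0 := by
      apply hY
      rw [map_zero, ← hRhapp, h0]
    exact h.d1 x h1 (hτ x hx)
  have hpowQ : ∀ (k : ℕ) (x : W), x ∈ Q → (Rh ^ k) x ∈ Q := by
    intro k
    induction k with
    | zero => intro x hx; simpa using hx
    | succ k ih =>
      intro x hx
      rw [pow_succ', Module.End.mul_apply]
      exact hQ _ (ih x hx)
  have hinjpow : ∀ (k : ℕ) (x : W), x ∈ Q → (Rh ^ k) x = 0 → x = 0 := by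
    intro k
    induction k with
    | zero => intro x _ h0; simpa using h0
    | succ k ih =>
      intro x hx h0
      rw [pow_succ, Module.End.mul_apply] at h0
      exact hinj x hx (ih _ (hQ x hx) h0)
  -- the operator `R̂ - t`
  let A : W →ₗ[F] W := Rh - algebraMap F (W →ₗ[F] W) t
  have hA : aeval Rh (X - C t : F[X]) = A := by simp [A]
  have hAapp : ∀ x, A x = Rh x - t • x := fun x => rfl
  have hAQ : ∀ x ∈ Q, A x ∈ Q := fun x hx => by
    rw [hAapp]
    exact Q.sub_mem (hQ x hx) (Q.smul_mem _ hx)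
  have hApowQ : ∀ (k : ℕ) (x : W), x ∈ Q → (A ^ k) x ∈ Q := by
    intro k
    induction k with
    | zero => intro x hx; simpa using hx
    | succ k ih =>
      intro x hx
      rw [pow_succ', Module.End.mul_apply]
      exact hAQ _ (ih x hx)
  have hAinj : ∀ (k : ℕ) (x : W), x ∈ Q → (A ^ k) x = 0 → x = 0 := by
    intro k
    induction k with
    | zero => intro x _ h0; simpa using h0
    | succ k ih =>
      intro x hx h0
      rw [pow_succ, Module.End.mul_apply] at h0
      have h1 := ih _ (hAQ x hx) h0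
      rw [hAapp, sub_eq_zero] at h1
      exact h.eig x h1 (hτ x hx)
  rw [eq_bot_iff]
  intro x hx
  have h2 : (Rh ^ a) ((A ^ b) x) = 0 := by
    have := LinearMap.congr_fun hk x
    rw [map_mul, map_pow, map_pow, aeval_X, hA, Module.End.mul_apply, LinearMap.zero_apply] at this
    exact this
  have h3 := hinjpow a _ (hApowQ b x hx) h2
  exact (Submodule.mem_bot F).2 (hAinj b x hx h3)

/-- Transport along an isomorphism. -/
theorem Data.map {W' : Type w} [AddCommGroup W'] [Module F W'] {Y s : W →ₗ[F] W} {τ : W →ₗ[F] F} {t : F}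
    (h : Data Y s τ t) (e : W ≃ₗ[F] W') (Y' : W' →ₗ[F] W') (hY' : ∀ x, Y' (e x) = e (Y x)) :
    Data Y' ((e : W →ₗ[F] W') ∘ₗ s ∘ₗ (e.symm : W' →ₗ[F] W)) (τ ∘ₗ (e.symm : W' →ₗ[F] W)) t := by
  have hs : ∀ x : W', ((e : W →ₗ[F] W') ∘ₗ s ∘ₗ (e.symm : W' →ₗ[F] W)) x = e (s (e.symm x)) := fun _ => rfl
  have hYs : ∀ x : W', Y' (((e : W →ₗ[F] W') ∘ₗ s ∘ₗ (e.symm : W' →ₗ[F] W)) x) = e (Y (s (e.symm x))) := by
    intro x
    rw [hs, hY']
  refine ⟨fun x h1 h2 => ?_, ?_, fun x h1 h2 => ?_, ?_, fun ht x h1 => ?_⟩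
  · rw [hs] at h1
    have h3 : s (e.symm x) = 0 := by simpa using h1
    have := h.d1 _ h3 h2
    simpa using this
  · obtain ⟨N, hN⟩ := h.nil
    refine ⟨N, LinearMap.ext fun x => ?_⟩
    have key : ∀ (k : ℕ) (y : W'), (((e : W →ₗ[F] W') ∘ₗ s ∘ₗ (e.symm : W' →ₗ[F] W)) ^ k) y =
        e ((s ^ k) (e.symm y)) := by
      intro k
      induction k with
      | zero => intro y; simp
      | succ k ih =>
        intro y
        rw [pow_succ', Module.End.mul_apply, ih, pow_succ', Module.End.mul_apply, hs]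
        simp
    rw [key, hN]
    simp
  · rw [hYs] at h1
    have h3 : Y (s (e.symm x)) = t • e.symm x := by
      apply e.injective
      rw [h1, map_smul]
      simp
    have := h.eig _ h3 h2
    simpa using this
  · obtain ⟨a, b, hk⟩ := h.kill
    refine ⟨a, b, LinearMap.ext fun x => ?_⟩
    have h1 := aeval_intertwine (e : W →ₗ[F] W') (Y ∘ₗ s)
      (Y' ∘ₗ ((e : W →ₗ[F] W') ∘ₗ s ∘ₗ (e.symm : W' →ₗ[F] W))) (fun y => by
        simp only [LinearMap.comp_apply, LinearEquiv.coe_coe]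
        rw [hY']
        simp) ((X : F[X]) ^ a * (X - C t) ^ b) (e.symm x)
    rw [hk] at h1
    simp only [LinearMap.zero_apply, map_zero, LinearEquiv.coe_coe, LinearEquiv.apply_symm_apply] at h1
    exact h1.symm
  · rw [hYs] at h1
    have h3 : Y (s (e.symm x)) = e.symm x := by
      apply e.injective
      rw [h1]
      simp
    have := h.fix ht _ h3
    simpa using this

variable {W₂ : Type v} [AddCommGroup W₂] [Module F W₂]

/-- The concatenation of a data and a block. -/
theorem Data.prod {Y₁ s₁ : W →ₗ[F] W} {τ₁ : W →ₗ[F] F} {t : F} (h₁ : Data Y₁ s₁ τ₁ t)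
    {Y₂ s₂ : W₂ →ₗ[F] W₂} {τ₂ : W₂ →ₗ[F] F} {a₂ : W₂} (h₂ : Block Y₂ s₂ τ₂ t a₂) :
    Data (Y₁.prodMap Y₂)
      (LinearMap.prod (s₁ ∘ₗ LinearMap.fst F W W₂)
        ((τ₁ ∘ₗ LinearMap.fst F W W₂).smulRight a₂ + s₂ ∘ₗ LinearMap.snd F W W₂))
      (τ₂ ∘ₗ LinearMap.snd F W W₂) t := by
  set s : W × W₂ →ₗ[F] W × W₂ := LinearMap.prod (s₁ ∘ₗ LinearMap.fst F W W₂)
        ((τ₁ ∘ₗ LinearMap.fst F W W₂).smulRight a₂ + s₂ ∘ₗ LinearMap.snd F W W₂) with hs
  have hsa : ∀ x₁ x₂, s (x₁, x₂) = (s₁ x₁, τ₁ x₁ • a₂ + s₂ x₂) := fun _ _ => rfl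
  have hYa : ∀ x₁ x₂, (Y₁.prodMap Y₂) (x₁, x₂) = (Y₁ x₁, Y₂ x₂) := fun _ _ => rfl
  refine ⟨?_, ?_, ?_, ?_, ?_⟩
  · rintro ⟨x₁, x₂⟩ h1 h2
    rw [hsa, Prod.mk_eq_zero] at h1
    have h3 := h₂.b1 (τ₁ x₁) x₂ (by rw [add_comm]; exact h1.2) h2
    have h4 := h₁.d1 x₁ h1.1 h3.1
    rw [h3.2, h4]; rfl
  · obtain ⟨N₁, hN₁⟩ := h₁.nil
    obtain ⟨N₂, hN₂⟩ := h₂.nil
    refine ⟨N₂ + N₁, LinearMap.ext fun x => ?_⟩
    have hfst : ∀ (k : ℕ) (y : W × W₂), ((s ^ k) y).1 = (s₁ ^ k) y.1 := by
      intro k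
      induction k with
      | zero => intro y; simp
      | succ k ih =>
        intro y
        rw [pow_succ', Module.End.mul_apply, pow_succ', Module.End.mul_apply, ← ih]
        rfl
    have hsnd : ∀ (k : ℕ) (y : W₂), (s ^ k) ((0 : W), y) = ((0 : W), (s₂ ^ k) y) := by
      intro k
      induction k with
      | zero => intro y; simp
      | succ k ih =>
        intro y
        rw [pow_succ, Module.End.mul_apply, hsa, map_zero, map_zero, zero_smul, zero_add, ih,
          pow_succ, Module.End.mul_apply]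
    have h1 : (s ^ N₁) x = ((0 : W), ((s ^ N₁) x).2) := by
      ext1
      · rw [hfst, hN₁]; rfl
      · rfl
    rw [pow_add, Module.End.mul_apply, h1, hsnd, hN₂]
    rfl
  · rintro ⟨x₁, x₂⟩ h1 h2
    rw [hsa, hYa, Prod.smul_mk, Prod.mk.injEq] at h1
    have h3 := h₂.b2 (τ₁ x₁) x₂ (by
      rw [add_comm]
      have := h1.2
      rw [map_add, map_smul] at this
      exact this) h2
    have h4 := h₁.eig x₁ h1.1 h3.1
    rw [h3.2, h4]; rfl
  · obtain ⟨a₁', b₁', hk₁⟩ := h₁.kill
    obtain ⟨a₂', b₂', hk₂⟩ := h₂.kill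
    refine ⟨a₂' + a₁', b₂' + b₁', LinearMap.ext fun x => ?_⟩
    set Rh : W × W₂ →ₗ[F] W × W₂ := (Y₁.prodMap Y₂) ∘ₗ s with hRh
    have hRa : ∀ x₁ x₂, Rh (x₁, x₂) = (Y₁ (s₁ x₁), Y₂ (τ₁ x₁ • a₂ + s₂ x₂)) := fun _ _ => rfl
    have hg : ((X : F[X]) ^ (a₂' + a₁') * (X - C t) ^ (b₂' + b₁')) =
        ((X : F[X]) ^ a₂' * (X - C t) ^ b₂') * ((X : F[X]) ^ a₁' * (X - C t) ^ b₁') := by ring
    rw [hg, map_mul, Module.End.mul_apply]
    -- first component vanishes
    have h1 := aeval_intertwine (LinearMap.fst F W W₂) Rh (Y₁ ∘ₗ s₁) (fun y => rfl)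
      ((X : F[X]) ^ a₁' * (X - C t) ^ b₁') x
    rw [hk₁, LinearMap.zero_apply] at h1
    have h2 := aeval_intertwine (LinearMap.inr F W W₂) (Y₂ ∘ₗ s₂) Rh (fun y => by
      change ((0 : W), Y₂ (s₂ y)) = Rh ((0 : W), y)
      rw [hRa, map_zero, map_zero, map_zero, zero_smul, zero_add])
      ((X : F[X]) ^ a₂' * (X - C t) ^ b₂') ((aeval Rh ((X : F[X]) ^ a₁' * (X - C t) ^ b₁') x).2)
    rw [hk₂] at h2
    simp only [LinearMap.zero_apply, map_zero] at h2
    have h3 : aeval Rh ((X : F[X]) ^ a₁' * (X - C t) ^ b₁') x =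
        LinearMap.inr F W W₂ ((aeval Rh ((X : F[X]) ^ a₁' * (X - C t) ^ b₁') x).2) := by
      ext1
      · exact h1
      · rfl
    rw [h3]
    exact h2.symm
  · rintro ht ⟨x₁, x₂⟩ h1
    rw [hsa, hYa, Prod.mk.injEq] at h1
    have h4 := h₁.fix ht x₁ h1.1
    have h5 := h1.2
    rw [h4, map_zero, zero_smul, zero_add] at h5
    have h6 := h₂.fix ht x₂ h5
    rw [h4, h6]; rfl

end DataDef

section BlockOfChain

variable {W : Type v} [AddCommGroup W] [Module F W] [FiniteDimensional F W]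

/-- A block from the chain data of a cyclic endomorphism. -/
theorem exists_block_of_chain {N s : W →ₗ[F] W} {ω ϖ : W →ₗ[F] F} {c e : W} (hch : Chain N s ω ϖ c e)
    {Y : W →ₗ[F] W} {t : F} (hY : ∀ x, Y x = x + t • N x) (hYs : Function.Surjective Y) :
    ∃ a : W, Block Y s ω t a := by
  have hRh : ∀ x, Y (s x) = s x + t • x - (t * ω x) • c := by
    intro x
    rw [hY, hch.rel, smul_sub, smul_smul]
    abel
  have hRh0 : ∀ x, ω x = 0 → Y (s x) = s x + t • x := by
    intro x hx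
    rw [hRh, hx]
    simp
  have hd1 : ∀ x, s x = 0 → ω x = 0 → x = 0 := by
    intro x h1 h2
    have := hch.rel x
    rw [h1, map_zero, h2, zero_smul, sub_zero] at this
    exact this.symm
  -- the attaching vector
  obtain ⟨a, ha1, ha2⟩ : ∃ a : W, ϖ a ≠ 0 ∧ ϖ (Y a) ≠ 0 := by
    obtain ⟨u₂, hu₂⟩ := hYs e
    have h1 : ϖ e ≠ 0 := by rw [hch.ϖe]; exact one_ne_zero
    have h2 : ϖ (Y u₂) ≠ 0 := by rw [hu₂]; exact h1
    by_cases h3 : ϖ (Y e) ≠ 0
    · exact ⟨e, h1, h3⟩
    by_cases h4 : ϖ u₂ ≠ 0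
    · exact ⟨u₂, h4, h2⟩
    push Not at h3 h4
    refine ⟨e + u₂, ?_, ?_⟩
    · rw [map_add, h4, add_zero]; exact h1
    · rw [map_add, map_add, h3, zero_add]; exact h2
  have hb1 : ∀ (ξ : F) (x : W), s x + ξ • a = 0 → ω x = 0 → ξ = 0 ∧ x = 0 := by
    intro ξ x h1 h2
    have h3 := congrArg ϖ h1
    rw [map_add, map_smul, hch.ϖσ, zero_add, map_zero, smul_eq_mul] at h3
    have hξ : ξ = 0 := (mul_eq_zero.1 h3).resolve_right ha1
    refine ⟨hξ, hd1 x ?_ h2⟩
    rwa [hξ, zero_smul, add_zero] at h1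
  have hb2 : ∀ (ξ : F) (x : W), Y (s x) + ξ • Y a = t • x → ω x = 0 → ξ = 0 ∧ x = 0 := by
    intro ξ x h1 h2
    rw [hRh0 x h2] at h1
    have h1' : s x + ξ • Y a = 0 := by
      have : s x + t • x + ξ • Y a - t • x = 0 := by rw [h1, sub_self]
      rw [← this]
      abel
    have h3 := congrArg ϖ h1'
    rw [map_add, map_smul, hch.ϖσ, zero_add, map_zero, smul_eq_mul] at h3
    have hξ : ξ = 0 := (mul_eq_zero.1 h3).resolve_right ha2
    refine ⟨hξ, hd1 x ?_ h2⟩
    rwa [hξ, zero_smul, add_zero] at h1'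
  refine ⟨a, ⟨hd1, hch.nil, ?_, ?_, ?_⟩, hb1, hb2⟩
  · intro x h1 h2
    exact (hb2 0 x (by rw [zero_smul, add_zero]; exact h1) h2).2
  · -- the killing polynomial
    obtain ⟨N', hN'⟩ := hch.nil
    refine ⟨1, N', ?_⟩
    set Rh : W →ₗ[F] W := Y ∘ₗ s with hRhdef
    have hRa : ∀ x, Rh x = Y (s x) := fun _ => rfl
    let A : W →ₗ[F] W := Rh - algebraMap F (W →ₗ[F] W) t
    have hA : aeval Rh (X - C t : F[X]) = A := by simp [A]
    have hAapp : ∀ x, A x = s x - (t * ω x) • c := by
      intro x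
      change Rh x - t • x = _
      rw [hRa, hRh]
      abel
    have hAc : A c = (-t) • c := by
      rw [hAapp, hch.σc, hch.ωc]
      simp
    have hAcpow : ∀ (k : ℕ), (A ^ k) c = ((-t) ^ k) • c := by
      intro k
      induction k with
      | zero => simp
      | succ k ih =>
        rw [pow_succ, Module.End.mul_apply, hAc, map_smul, ih, smul_smul, pow_succ, mul_comm]
    have key : ∀ (k : ℕ) (x : W), ∃ β : F, (A ^ k) x = (s ^ k) x + β • c := by
      intro k
      induction k with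
      | zero => intro x; exact ⟨0, by simp⟩
      | succ k ih =>
        intro x
        obtain ⟨β, hβ⟩ := ih (s x)
        refine ⟨β - (t * ω x) * (-t) ^ k, ?_⟩
        rw [pow_succ, Module.End.mul_apply, hAapp, map_sub, hβ, map_smul, hAcpow, pow_succ,
          Module.End.mul_apply, smul_smul, sub_smul]
        abel
    refine LinearMap.ext fun x => ?_
    obtain ⟨β, hβ⟩ := key N' x
    have h5 : (A ^ N') x = β • c := by
      rw [hβ, hN', LinearMap.zero_apply, zero_add]
    rw [map_mul, map_pow, map_pow, aeval_X, hA, pow_one, Module.End.mul_apply, h5, map_smul, hRa,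
      hch.σc, map_zero, smul_zero, LinearMap.zero_apply]
  · intro ht x h1
    rw [hRh] at h1
    -- `y = s x` satisfies `s y = (1 - t) y`
    have hy : s (s x) = (1 - t) • s x := by
      have h2 := congrArg s h1
      rw [map_sub, map_add, map_smul, map_smul, hch.σc, smul_zero, sub_zero] at h2
      rw [sub_smul, one_smul, eq_sub_iff_add_eq]
      exact h2
    obtain ⟨N', hN'⟩ := hch.nil
    have hpow : ∀ k : ℕ, (s ^ k) (s x) = ((1 - t) ^ k) • s x := by
      intro k
      induction k with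
      | zero => simp
      | succ k ih =>
        rw [pow_succ, Module.End.mul_apply, hy, map_smul, ih, smul_smul, pow_succ, mul_comm]
    have h3 := hpow N'
    rw [hN', LinearMap.zero_apply] at h3
    have h1t : (1 - t) ^ N' ≠ 0 := pow_ne_zero _ (sub_ne_zero.2 (Ne.symm ht))
    have hsx : s x = 0 := (smul_eq_zero.1 h3.symm).resolve_left h1t
    rw [hsx, zero_add] at h1
    -- apply `ω`
    have h4 := congrArg ω h1
    rw [map_sub, map_smul, map_smul, hch.ωc, smul_eq_mul, smul_eq_mul, mul_one] at h4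
    have hωx : ω x = 0 := by linear_combination -h4
    exact hd1 x hsx hωx
  
end BlockOfChain

end Cfsg.Agent.Lib.Linalg.Lev
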