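import Mathlib
import Cfsg.Agent.Lib.Linalg.Lev.Chain

/-!
# The factorization for `A × Z` on `W × U`, with `Z` cyclic

`IsComm T`: `T` is a commutator of two automorphisms of determinant one.
-/

set_option autoImplicit false

open Polynomial Module

namespace Cfsg.Agent.Lib.Linalg.Lev

universe u v w

variable {F : Type u} [Field F]

section Comm

variable {V : Type v} [AddCommGroup V] [Module F V]

/-- `T` is a commutator of two automorphisms of determinant one. -/
def IsComm (T : V →ₗ[F] V) : Prop :=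
  ∃ a b : V ≃ₗ[F] V, LinearMap.det (a : V →ₗ[F] V) = 1 ∧ LinearMap.det (b : V →ₗ[F] V) = 1 ∧
    ∀ x, T x = a (b (a.symm (b.symm x)))

variable [FiniteDimensional F V]

theorem det_symm_of_det_one (G : V ≃ₗ[F] V) (h : LinearMap.det (G : V →ₗ[F] V) = 1) :
    LinearMap.det (G.symm : V →ₗ[F] V) = 1 := by
  have h1 : LinearMap.det ((G.symm : V →ₗ[F] V) ∘ₗ (G : V →ₗ[F] V)) = 1 := by
    have : (G.symm : V →ₗ[F] V) ∘ₗ (G : V →ₗ[F] V) = LinearMap.id := by
      ext x; simp
    rw [this, LinearMap.det_id]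
  rwa [LinearMap.det_comp, h, mul_one] at h1

/-- Two cyclic endomorphisms with the same relation, one with a simple eigenvalue over a hyperplane. -/
theorem isComm_of_factor (T B D : V →ₗ[F] V) (φ : V →ₗ[F] F) (f : F[X]) (z z₀ e' : V) (κ : F)
    (hT : LinearMap.det T = 1) (hBD : ∀ x, B x = T (D x)) (hB : IsCyc B f z) (hD : IsCyc D f z₀)
    (hDe : D e' = κ • e') (he' : φ e' = 1) (hDφ : ∀ x, φ x = 0 → φ (D x) = 0)
    (hdB : LinearMap.det B = 1) : IsComm T := by
  classical
  obtain ⟨e, he⟩ := hD.exists_conj hB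
  set δ := LinearMap.det (e : V →ₗ[F] V) with hδdef
  have hδ : δ ≠ 0 := (LinearEquiv.isUnit_det' e).ne_zero
  set s : F := δ⁻¹ with hs
  have hs0 : s ≠ 0 := inv_ne_zero hδ
  have hφDx : ∀ x, φ (D x) = κ * φ x := by
    intro x
    have h1 : φ (x - φ x • e') = 0 := by
      rw [map_sub, map_smul, he', smul_eq_mul, mul_one, sub_self]
    have h2 := hDφ _ h1
    rw [map_sub, map_sub, map_smul, map_smul, hDe, map_smul, he', smul_eq_mul, smul_eq_mul,
      mul_one, sub_eq_zero] at h2
    rw [h2]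
    ring
  -- the correcting element
  let c₁ : V →ₗ[F] V := LinearMap.id + φ.smulRight ((s - 1) • e')
  let c₂ : V →ₗ[F] V := LinearMap.id + φ.smulRight ((s⁻¹ - 1) • e')
  have hc₁ : ∀ x, c₁ x = x + φ x • (s - 1) • e' := fun _ => rfl
  have hc₂ : ∀ x, c₂ x = x + φ x • (s⁻¹ - 1) • e' := fun _ => rfl
  have hφc₁ : ∀ x, φ (c₁ x) = s * φ x := by
    intro x
    rw [hc₁, map_add, map_smul, map_smul, he', smul_eq_mul, smul_eq_mul, mul_one]
    ring
  have hφc₂ : ∀ x, φ (c₂ x) = s⁻¹ * φ x := by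
    intro x
    rw [hc₂, map_add, map_smul, map_smul, he', smul_eq_mul, smul_eq_mul, mul_one]
    ring
  let c : V ≃ₗ[F] V := LinearEquiv.ofLinear c₁ c₂
    (by
      refine LinearMap.ext fun x => ?_
      simp only [LinearMap.comp_apply, LinearMap.id_apply]
      rw [hc₁, hφc₂, hc₂, smul_smul, smul_smul, add_assoc, ← add_smul]
      have : φ x * (s⁻¹ - 1) + s⁻¹ * φ x * (s - 1) = 0 := by
        field_simp
        ring
      rw [this, zero_smul, add_zero])
    (by
      refine LinearMap.ext fun x => ?_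
      simp only [LinearMap.comp_apply, LinearMap.id_apply]
      rw [hc₂, hφc₁, hc₁, smul_smul, smul_smul, add_assoc, ← add_smul]
      have : φ x * (s - 1) + s * φ x * (s⁻¹ - 1) = 0 := by
        field_simp
        ring
      rw [this, zero_smul, add_zero])
  have hcx : ∀ x, c x = x + φ x • (s - 1) • e' := fun _ => rfl
  have hcinv : ∀ x ∈ LinearMap.ker φ, (c : V →ₗ[F] V) x ∈ LinearMap.ker φ := by
    intro x hx
    have hx' : φ x = 0 := hx
    rw [LinearMap.mem_ker]
    change φ (c₁ x) = 0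
    rw [hφc₁, hx', mul_zero]
  have hdetc : LinearMap.det (c : V →ₗ[F] V) = s := by
    have h1 := det_of_hyperplane (c : V →ₗ[F] V) φ e' he' hcinv
    have h2 : (c : V →ₗ[F] V).restrict hcinv = LinearMap.id := by
      refine LinearMap.ext fun x => Subtype.ext ?_
      have hx' : φ (x : V) = 0 := x.2
      rw [LinearMap.coe_restrict_apply]
      change c (x : V) = x
      rw [hcx, hx', zero_smul, add_zero]
    rw [h1, h2, LinearMap.det_id, one_mul]
    change φ (c₁ e') = s
    rw [hφc₁, he', mul_one]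
  have hcD : ∀ x, c (D x) = D (c x) := by
    intro x
    rw [hcx, hcx, map_add, map_smul, map_smul, hDe, hφDx]
    module
  let G : V ≃ₗ[F] V := c.trans e
  have hGx : ∀ x, G x = e (c x) := fun _ => rfl
  have hdetG : LinearMap.det (G : V →ₗ[F] V) = 1 := by
    have : (G : V →ₗ[F] V) = (e : V →ₗ[F] V) ∘ₗ (c : V →ₗ[F] V) := rfl
    rw [this, LinearMap.det_comp, hdetc, ← hδdef, hs, mul_inv_cancel₀ hδ]
  have hGD : ∀ x, G (D x) = B (G x) := by
    intro x
    rw [hGx, hGx, hcD, he]
  -- `B` as an equivalence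
  have hB0 : LinearMap.det B ≠ 0 := by rw [hdB]; exact one_ne_zero
  let Be : V ≃ₗ[F] V := LinearMap.equivOfDetNeZero B hB0
  have hBe : ∀ x, Be x = B x := fun _ => rfl
  refine ⟨Be, G.symm, ?_, det_symm_of_det_one G hdetG, fun x => ?_⟩
  · change LinearMap.det B = 1
    exact hdB
  · -- the computation
    set y := G.symm (Be.symm (G x)) with hy
    have h1 : G (D y) = G x := by
      rw [hGD, hy, LinearEquiv.apply_symm_apply, ← hBe, LinearEquiv.apply_symm_apply]
    have h2 : D y = x := G.injective h1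
    have h3 : G.symm.symm x = G x := rfl
    rw [h3, ← hy, hBe, hBD, h2]

/-- Conjugation invariance. -/
theorem IsComm.of_conj {V' : Type w} [AddCommGroup V'] [Module F V'] [FiniteDimensional F V']
    {T : V →ₗ[F] V} {T' : V' →ₗ[F] V'} (h : IsComm T) (e : V ≃ₗ[F] V')
    (he : ∀ x, e (T x) = T' (e x)) : IsComm T' := by
  obtain ⟨a, b, ha, hb, hT⟩ := h
  refine ⟨e.symm.trans (a.trans e), e.symm.trans (b.trans e), ?_, ?_, fun x => ?_⟩
  · have : ((e.symm.trans (a.trans e) : V' ≃ₗ[F] V') : V' →ₗ[F] V') =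
        (e : V →ₗ[F] V') ∘ₗ (a : V →ₗ[F] V) ∘ₗ (e.symm : V' →ₗ[F] V) := rfl
    rw [this, LinearMap.det_conj, ha]
  · have : ((e.symm.trans (b.trans e) : V' ≃ₗ[F] V') : V' →ₗ[F] V') =
        (e : V →ₗ[F] V') ∘ₗ (b : V →ₗ[F] V) ∘ₗ (e.symm : V' →ₗ[F] V) := rfl
    rw [this, LinearMap.det_conj, hb]
  · have h1 := he (e.symm x)
    rw [e.apply_symm_apply] at h1
    rw [← h1, hT]
    simp

/-- Products of commutators. -/
theorem IsComm.prod {V' : Type w} [AddCommGroup V'] [Module F V'] [FiniteDimensional F V']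
    {T : V →ₗ[F] V} {T' : V' →ₗ[F] V'} (h : IsComm T) (h' : IsComm T') : IsComm (T.prodMap T') := by
  obtain ⟨a, b, ha, hb, hT⟩ := h
  obtain ⟨a', b', ha', hb', hT'⟩ := h'
  refine ⟨a.prodCongr a', b.prodCongr b', ?_, ?_, fun x => ?_⟩
  · have : ((a.prodCongr a' : (V × V') ≃ₗ[F] (V × V')) : (V × V') →ₗ[F] (V × V')) =
        (a : V →ₗ[F] V).prodMap (a' : V' →ₗ[F] V') := rfl
    rw [this, LinearMap.det_prodMap, ha, ha', mul_one]
  · have : ((b.prodCongr b' : (V × V') ≃ₗ[F] (V × V')) : (V × V') →ₗ[F] (V × V')) =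
        (b : V →ₗ[F] V).prodMap (b' : V' →ₗ[F] V') := rfl
    rw [this, LinearMap.det_prodMap, hb, hb', mul_one]
  · obtain ⟨x₁, x₂⟩ := x
    change (T x₁, T' x₂) = _
    rw [hT, hT']
    rfl

theorem isComm_of_subsingleton [Subsingleton V] (T : V →ₗ[F] V) : IsComm T := by
  refine ⟨LinearEquiv.refl F V, LinearEquiv.refl F V, ?_, ?_, fun x => Subsingleton.elim _ _⟩ <;>
  · change LinearMap.det LinearMap.id = 1
    rw [LinearMap.det_id]

theorem isComm_id : IsComm (LinearMap.id : V →ₗ[F] V) := by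
  refine ⟨LinearEquiv.refl F V, LinearEquiv.refl F V, ?_, ?_, fun x => rfl⟩ <;>
  · change LinearMap.det LinearMap.id = 1
    rw [LinearMap.det_id]

end Comm

section Prod

variable {W : Type v} [AddCommGroup W] [Module F W] [FiniteDimensional F W]
variable {U : Type v} [AddCommGroup U] [Module F U] [FiniteDimensional F U]

/-- The factorization on `W × U`. -/
theorem exists_factor_prod (A : W ≃ₗ[F] W) (Z : U ≃ₗ[F] U) {s : W →ₗ[F] W} {τ : W →ₗ[F] F} {t : F}
    (hD : Data (A.symm : W →ₗ[F] W) s τ t) {σ : U →ₗ[F] U} {ω ϖ : U →ₗ[F] F} {c e : U}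
    (hch : Chain (Z : U →ₗ[F] U) σ ω ϖ c e) (hϖc : ϖ c = 0)
    (hsep : (∀ u, ω u = 0 → ϖ u = 0 → u = 0) ∨ (∀ x, A.symm (s x) = x → x = 0))
    (p : F[X]) (hp : p.Monic) (hpd : p.natDegree + 1 = finrank F (W × U)) (hp0 : p.coeff 0 ≠ 0) (κ : F)
    (hκp : p.eval κ ≠ 0)
    (f : F[X]) (hf : f.Monic) (hfd : f.natDegree = finrank F (W × U))
    (hdet : (-1) ^ finrank F (W × U) * f.coeff 0 =
      LinearMap.det ((A.prodCongr Z : (W × U) ≃ₗ[F] (W × U)) : (W × U) →ₗ[F] (W × U)) *
        ((-1) ^ p.natDegree * p.coeff 0 * κ)) :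
    ∃ (B D : (W × U) →ₗ[F] (W × U)) (z z₀ e' : W × U) (φ : (W × U) →ₗ[F] F),
      (∀ x, B x = (A.prodCongr Z) (D x)) ∧ IsCyc B f z ∧
      IsCyc D ((X - C κ) * p) z₀ ∧ D e' = κ • e' ∧ φ e' = 1 ∧ (∀ x, φ x = 0 → φ (D x) = 0) := by
  classical
  let φ : (W × U) →ₗ[F] F := ϖ ∘ₗ LinearMap.snd F W U
  let ψ : (W × U) →ₗ[F] F := ω ∘ₗ LinearMap.snd F W U
  let Pr : U →ₗ[F] U := LinearMap.id - ω.smulRight c - ϖ.smulRight e
  let X₁ : (W × U) →ₗ[F] (W × U) := LinearMap.prod ((A.symm : W →ₗ[F] W) ∘ₗ s ∘ₗ LinearMap.fst F W U)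
    ((τ ∘ₗ LinearMap.fst F W U).smulRight c + (LinearMap.id + σ) ∘ₗ Pr ∘ₗ LinearMap.snd F W U)
  have hφa : ∀ w u, φ (w, u) = ϖ u := fun _ _ => rfl
  have hψa : ∀ w u, ψ (w, u) = ω u := fun _ _ => rfl
  have hPr : ∀ u, Pr u = u - ω u • c - ϖ u • e := fun _ => rfl
  have hPr' : ∀ u, ω u = 0 → ϖ u = 0 → Pr u = u := by
    intro u h1 h2
    rw [hPr, h1, h2]
    simp
  have hX₁a : ∀ w u, X₁ (w, u) = (A.symm (s w), τ w • c + (Pr u + σ (Pr u))) := fun _ _ => rfl
  have hT : ∀ w u, (A.prodCongr Z) (w, u) = (A w, Z u) := fun _ _ => rfl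
  have hZσ : ∀ x, Z (σ x) = x - ω x • c := hch.rel
  have hinjσ : ∀ y, y + σ y = 0 → y = 0 := by
    intro y hy
    obtain ⟨N, hN⟩ := hch.nil
    have h1 : σ y = -y := eq_neg_of_add_eq_zero_right hy
    have h2 : ∀ k : ℕ, (σ ^ k) y = ((-1 : F) ^ k) • y := by
      intro k
      induction k with
      | zero => simp
      | succ k ih =>
        rw [pow_succ, Module.End.mul_apply, h1, map_neg, ih, pow_succ, mul_neg_one, neg_smul]
    have h3 := h2 N
    rw [hN, LinearMap.zero_apply] at h3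
    exact (smul_eq_zero.1 h3.symm).resolve_left (pow_ne_zero _ (by simp))
  refine (fun key => ?_) (exists_factor (A.prodCongr Z) φ ψ ((0 : W), e)
    (by rw [hφa]; exact hch.ϖe) X₁ ?_ ?_ ?_ ?_ p hp hpd hp0 κ hκp f hf hfd hdet)
  · obtain ⟨B, D, z, z₀, e', hBD, hB, hD', hDe, he', hDφ⟩ := key
    exact ⟨B, D, z, z₀, e', φ, hBD, hB, hD', hDe, he', hDφ⟩
  · -- the image of `X₁` is in the hyperplane
    rintro ⟨w, u⟩
    rw [hX₁a, hφa, map_add, map_add, map_smul, hϖc, hch.ϖσ, hPr, map_sub, map_sub, map_smul, map_smul,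
      hϖc, hch.ϖe]
    simp
  · -- first level
    intro P hPφ hinv hψ
    have hP1 : ∀ w u, (w, u) ∈ P → ϖ u = 0 ∧ ω u = 0 := fun w u h => ⟨hPφ h, hψ _ h⟩
    have hX : ∀ w u, (w, u) ∈ P → X₁ (w, u) = (A.symm (s w), τ w • c + (u + σ u)) := by
      intro w u h
      rw [hX₁a, hPr' u (hP1 w u h).2 (hP1 w u h).1]
    have hmem : ∀ w u, (w, u) ∈ P → (A.symm (s w), τ w • c + (u + σ u)) ∈ P := by
      intro w u h
      rw [← hX w u h]
      exact hinv _ h
    have ha : ∀ w u, (w, u) ∈ P → τ w + ω (σ u) = 0 := by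
      intro w u h
      have h1 := (hP1 _ _ (hmem w u h)).2
      rw [map_add, map_add, map_smul, hch.ωc, (hP1 w u h).2, smul_eq_mul, mul_one, zero_add] at h1
      exact h1
    -- the part in `W`
    let Q₀ : Submodule F W := P.comap (LinearMap.inl F W U)
    have hQmem : ∀ w, w ∈ Q₀ ↔ (w, (0 : U)) ∈ P := fun w => Iff.rfl
    have hQ₀ : Q₀ = ⊥ := by
      refine hD.adm A.symm.injective Q₀ (fun w hw => ?_) (fun w hw => ?_)
      · rw [hQmem] at hw ⊢
        have h1 := hmem w 0 hw
        have h2 := ha w 0 hw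
        rw [map_zero, map_zero, add_zero] at h2
        rw [h2, map_zero, zero_smul, add_zero, zero_add] at h1
        exact h1
      · rw [hQmem] at hw
        have h2 := ha w 0 hw
        rw [map_zero, map_zero, add_zero] at h2
        exact h2
    have hQ₀' : ∀ w, (w, (0 : U)) ∈ P → w = 0 := by
      intro w hw
      have : w ∈ Q₀ := hw
      rw [hQ₀] at this
      exact (Submodule.mem_bot F).1 this
    -- the difference `X₁ - 1`
    have hdiff : ∀ w u, (w, u) ∈ P → (A.symm (s w) - w, σ u - ω (σ u) • c) ∈ P := by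
      intro w u h
      have h1 := P.sub_mem (hmem w u h) h
      have h2 : (A.symm (s w), τ w • c + (u + σ u)) - (w, u) = (A.symm (s w) - w, σ u - ω (σ u) • c) := by
        refine Prod.ext rfl ?_
        change τ w • c + (u + σ u) - u = σ u - ω (σ u) • c
        have h3 : τ w = - ω (σ u) := eq_neg_of_add_eq_zero_left (ha w u h)
        rw [h3, neg_smul]
        abel
      rwa [h2] at h1
    obtain ⟨N, hN⟩ := hch.nil
    rw [eq_bot_iff]
    rintro ⟨w, u⟩ hx
    rw [Submodule.mem_bot]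
    rcases hsep with hsep | hfix
    · -- `U` has dimension two
      have hu : u = 0 := hsep u (hP1 w u hx).2 (hP1 w u hx).1
      subst hu
      rw [hQ₀' w hx]
      rfl
    · -- the general case
      have hC : ∀ (m : ℕ) (w : W) (u : U), (w, u) ∈ P → (σ ^ m) u = 0 → w = 0 := by
        intro m
        induction m with
        | zero =>
          intro w u h hu
          have hu' : u = 0 := by simpa using hu
          subst hu'
          exact hQ₀' w h
        | succ m ih =>
          intro w u h hu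
          have h1 := hdiff w u h
          have h2 : (σ ^ m) (σ u - ω (σ u) • c) = 0 := by
            rw [map_sub, map_smul]
            have h3 : (σ ^ m) (σ u) = 0 := by
              rw [← Module.End.mul_apply, ← pow_succ]
              exact hu
            rcases m with _ | m
            · have h4 : σ u = 0 := by simpa using h3
              rw [h4]
              simp
            · rw [h3, pow_succ, Module.End.mul_apply, hch.σc]
              simp
          have h3 := ih _ _ h1 h2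
          exact hfix w (sub_eq_zero.1 h3)
      have hw0 : ∀ w u, (w, u) ∈ P → w = 0 := by
        intro w u h
        refine hC N w u h ?_
        rw [hN, LinearMap.zero_apply]
      have hE : ∀ (m : ℕ) (u : U), ((0 : W), u) ∈ P → (σ ^ m) u = 0 → u = 0 := by
        intro m
        induction m with
        | zero =>
          intro u _ hu
          simpa using hu
        | succ m ih =>
          intro u h hu
          have h1 := hdiff 0 u h
          have h2 := ha 0 u h
          rw [map_zero, zero_add] at h2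
          rw [map_zero, map_zero, sub_self, h2, zero_smul, sub_zero] at h1
          have h3 : (σ ^ m) (σ u) = 0 := by
            rw [← Module.End.mul_apply, ← pow_succ]
            exact hu
          have h4 := ih _ h1 h3
          have h5 := hZσ u
          rw [h4, map_zero, (hP1 0 u h).2, zero_smul, sub_zero] at h5
          exact h5.symm
      have hw := hw0 w u hx
      subst hw
      have hu := hE N u hx (by rw [hN, LinearMap.zero_apply])
      subst hu
      rfl
  · -- the hyperplane maps into `ker ψ`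
    rintro ⟨w, u⟩ hx
    rw [hT, hψa]
    obtain ⟨v, rfl⟩ := hch.surj u hx
    change ω (Z (σ v)) = 0
    rw [hZσ, map_sub, map_smul, hch.ωc, smul_eq_mul, mul_one, sub_self]
  · -- second level
    intro P hPφ hPψ hinv
    have hP1 : ∀ w u, (w, u) ∈ P → ϖ u = 0 ∧ ω u = 0 := fun w u h => ⟨hPφ h, hPψ h⟩
    have hX : ∀ w u, (w, u) ∈ P → (A.prodCongr Z) (X₁ (w, u)) = (s w, Z (τ w • c + (u + σ u))) := by
      intro w u h
      rw [hX₁a, hPr' u (hP1 w u h).2 (hP1 w u h).1, hT, A.apply_symm_apply]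
    have hmem : ∀ w u, (w, u) ∈ P → (s w, Z (τ w • c + (u + σ u))) ∈ P := by
      intro w u h
      rw [← hX w u h]
      exact hinv _ h
    -- the part in `U`
    have hZu : ∀ u, ((0 : W), u) ∈ P → ((0 : W), Z u) ∈ P := by
      intro u h
      have h1 := hmem 0 u h
      rw [map_zero, map_zero, zero_smul, zero_add, map_add, hZσ, (hP1 0 u h).2, zero_smul, sub_zero] at h1
      have h2 := P.sub_mem h1 h
      have h3 : ((0 : W), Z u + u) - ((0 : W), u) = ((0 : W), Z u) := by
        refine Prod.ext (sub_zero _) ?_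
        change Z u + u - u = Z u
        abel
      rwa [h3] at h2
    let P₀ : Submodule F U := P.comap (LinearMap.inr F W U)
    have hP₀mem : ∀ u, u ∈ P₀ ↔ ((0 : W), u) ∈ P := fun _ => Iff.rfl
    let Zr : P₀ →ₗ[F] P₀ := (Z : U →ₗ[F] U).restrict (fun u hu => (hP₀mem _).2 (hZu u ((hP₀mem _).1 hu)))
    have hZrinj : Function.Injective Zr := by
      rw [← LinearMap.ker_eq_bot, LinearMap.ker_eq_bot']
      rintro ⟨u, hu⟩ h0
      have h1 : Z u = 0 := congrArg Subtype.val h0
      have h2 : u = 0 := by simpa using h1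
      exact Subtype.ext h2
    have hZrs := LinearMap.injective_iff_surjective.1 hZrinj
    have hσZ : ∀ u, ϖ u = 0 → σ (Z u) = u := by
      intro u hu
      obtain ⟨v, rfl⟩ := hch.surj u hu
      rw [hZσ, map_sub, map_smul, hch.σc, smul_zero, sub_zero]
    have hP₀σ : ∀ u, u ∈ P₀ → σ u ∈ P₀ := by
      intro u hu
      obtain ⟨⟨u', hu'⟩, h1⟩ := hZrs ⟨u, hu⟩
      have h2 : Z u' = u := congrArg Subtype.val h1
      rw [← h2, hσZ u' (hP1 0 u' ((hP₀mem _).1 hu')).1]
      exact hu'
    have hE : ∀ (m : ℕ) (u : U), u ∈ P₀ → (σ ^ m) u = 0 → u = 0 := by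
      intro m
      induction m with
      | zero =>
        intro u _ hu
        simpa using hu
      | succ m ih =>
        intro u h hu
        have h3 : (σ ^ m) (σ u) = 0 := by
          rw [← Module.End.mul_apply, ← pow_succ]
          exact hu
        have h4 := ih _ (hP₀σ u h) h3
        have h5 := hZσ u
        rw [h4, map_zero, (hP1 0 u ((hP₀mem _).1 h)).2, zero_smul, sub_zero] at h5
        exact h5.symm
    obtain ⟨N, hN⟩ := hch.nil
    have hu0 : ∀ u, ((0 : W), u) ∈ P → u = 0 := fun u h =>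
      hE N u ((hP₀mem _).2 h) (by rw [hN, LinearMap.zero_apply])
    -- descending along `s`
    have hC : ∀ (m : ℕ) (w : W) (u : U), (w, u) ∈ P → (s ^ m) w = 0 → w = 0 ∧ u = 0 := by
      intro m
      induction m with
      | zero =>
        intro w u h hw
        have hw' : w = 0 := by simpa using hw
        subst hw'
        exact ⟨rfl, hu0 u h⟩
      | succ m ih =>
        intro w u h hw
        have h3 : (s ^ m) (s w) = 0 := by
          rw [← Module.End.mul_apply, ← pow_succ]
          exact hw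
        have h4 := ih _ _ (hmem w u h) h3
        have h5 : τ w • c + (u + σ u) = 0 := Z.injective (by rw [h4.2, map_zero])
        -- `(1 + σ) (u + τ w • c) = 0`
        have h6 : (u + τ w • c) + σ (u + τ w • c) = 0 := by
          rw [map_add, map_smul, hch.σc, smul_zero, add_zero, ← h5]
          abel
        have h7 := hinjσ _ h6
        have h8 : ω (u + τ w • c) = 0 := by rw [h7, map_zero]
        rw [map_add, map_smul, hch.ωc, (hP1 w u h).2, zero_add, smul_eq_mul, mul_one] at h8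
        rw [h8, zero_smul, add_zero] at h7
        exact ⟨hD.d1 w h4.1 h8, h7⟩
    obtain ⟨N', hN'⟩ := hD.nil
    rw [eq_bot_iff]
    rintro ⟨w, u⟩ hx
    have h1 := hC N' w u hx (by rw [hN', LinearMap.zero_apply])
    rw [Submodule.mem_bot, h1.1, h1.2]
    rfl

/-- The commutator statement on `W × U`. -/
theorem isComm_prod (A : W ≃ₗ[F] W) (Z : U ≃ₗ[F] U) {s : W →ₗ[F] W} {τ : W →ₗ[F] F} {t : F}
    (hD : Data (A.symm : W →ₗ[F] W) s τ t) {σ : U →ₗ[F] U} {ω ϖ : U →ₗ[F] F} {c e : U}
    (hch : Chain (Z : U →ₗ[F] U) σ ω ϖ c e) (hϖc : ϖ c = 0)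
    (hsep : (∀ u, ω u = 0 → ϖ u = 0 → u = 0) ∨ (∀ x, A.symm (s x) = x → x = 0))
    (hdetT : LinearMap.det ((A.prodCongr Z : (W × U) ≃ₗ[F] (W × U)) : (W × U) →ₗ[F] (W × U)) = 1)
    (p : F[X]) (hp : p.Monic) (hpd : p.natDegree + 1 = finrank F (W × U)) (κ : F)
    (hκp : p.eval κ ≠ 0) (hκ1 : (-1) ^ p.natDegree * p.coeff 0 * κ = 1) :
    IsComm ((A.prodCongr Z : (W × U) ≃ₗ[F] (W × U)) : (W × U) →ₗ[F] (W × U)) := by
  have hp0 : p.coeff 0 ≠ 0 := by
    intro h0
    rw [h0] at hκ1
    simp at hκ1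
  have hf : ((X - C κ) * p).Monic := (monic_X_sub_C κ).mul hp
  have hfd : ((X - C κ) * p).natDegree = finrank F (W × U) := by
    rw [(monic_X_sub_C κ).natDegree_mul hp, natDegree_X_sub_C, add_comm]
    exact hpd
  have hf0 : (-1) ^ finrank F (W × U) * ((X - C κ) * p).coeff 0 = 1 := by
    rw [← hpd, mul_coeff_zero, coeff_sub, coeff_X_zero, coeff_C_zero, pow_succ]
    linear_combination hκ1
  obtain ⟨B, D, z, z₀, e', φ, hBD, hB, hD', hDe, he', hDφ⟩ := exists_factor_prod A Z hD hch hϖc hsep p hp hpd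
    hp0 κ hκp ((X - C κ) * p) hf hfd (by rw [hf0, hdetT, hκ1, one_mul])
  exact isComm_of_factor _ B D φ _ z z₀ e' κ hdetT hBD hB hD' hDe he' hDφ (by rw [hB.det_eq, hf0])

end Prod

end Cfsg.Agent.Lib.Linalg.Lev
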