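import Mathlib
import Cfsg.Agent.Lib.Linalg.RCF
import Cfsg.Agent.Lib.Linalg.Lev.Assembly

/-!
# Decompositions of an endomorphism: a cyclic summand, of dimension at least two if not scalar
-/

set_option autoImplicit false

open Polynomial Module

namespace Cfsg.Agent.Lib.Linalg.Lev

open Cfsg.Agent.Lib.Linalg.RCF

universe u v

variable {F : Type u} [Field F]

section Model

variable {V : Type v} [AddCommGroup V] [Module F V]
variable {k : ℕ} {c : Fin k → F[X] × ℕ}

/-- The vectors supported on `S`. -/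
def supp (g : V ≃ₗ[F] Model c) (S : Set (Fin k)) : Submodule F V where
  carrier := {x | ∀ i, i ∉ S → g x i = 0}
  add_mem' := by
    intro a b ha hb i hi
    rw [map_add, Pi.add_apply, ha i hi, hb i hi, add_zero]
  zero_mem' := by
    intro i _
    rw [map_zero]
    rfl
  smul_mem' := by
    intro r a ha i hi
    rw [map_smul, Pi.smul_apply, ha i hi, smul_zero]

theorem mem_supp (g : V ≃ₗ[F] Model c) (S : Set (Fin k)) (x : V) :
    x ∈ supp g S ↔ ∀ i, i ∉ S → g x i = 0 := Iff.rfl

theorem isCompl_supp (g : V ≃ₗ[F] Model c) (S : Set (Fin k)) : IsCompl (supp g Sᶜ) (supp g S) := by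
  classical
  constructor
  · rw [Submodule.disjoint_def]
    intro x h1 h2
    have : g x = 0 := by
      funext i
      by_cases hi : i ∈ S
      · exact h1 i (by simpa using hi)
      · exact h2 i hi
    simpa using this
  · rw [codisjoint_iff, eq_top_iff]
    intro x _
    rw [Submodule.mem_sup]
    refine ⟨g.symm (fun i => if i ∈ S then 0 else g x i), ?_, g.symm (fun i => if i ∈ S then g x i else 0),
      ?_, ?_⟩
    · intro i hi
      have hi' : i ∈ S := by simpa using hi
      rw [g.apply_symm_apply]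
      simp [hi']
    · intro i hi
      rw [g.apply_symm_apply]
      simp [hi]
    · apply g.injective
      rw [map_add, g.apply_symm_apply, g.apply_symm_apply]
      funext i
      by_cases hi : i ∈ S <;> simp [hi]

theorem supp_invariant (g : V ≃ₗ[F] Model c) (T : V →ₗ[F] V)
    (hg : ∀ v, g (T v) = (X : F[X]) • g v) (S : Set (Fin k)) : ∀ x ∈ supp g S, T x ∈ supp g S := by
  intro x hx i hi
  rw [hg, Pi.smul_apply, hx i hi, smul_zero]

/-- The generators. -/
noncomputable def unitV (g : V ≃ₗ[F] Model c) (i : Fin k) : V :=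
  g.symm (Pi.single i (Submodule.Quotient.mk 1))

theorem map_unitV (g : V ≃ₗ[F] Model c) (i : Fin k) :
    g (unitV g i) = Pi.single i (Submodule.Quotient.mk 1) := by
  rw [unitV, g.apply_symm_apply]

theorem aeval_unitV_apply (g : V ≃ₗ[F] Model c) (T : V →ₗ[F] V)
    (hg : ∀ v, g (T v) = (X : F[X]) • g v) (f : F[X]) (v : V) (l : Fin k) :
    g (aeval T f v) l = f • g v l := by
  have := map_aeval_of_intertwine (M := Model c) T (g : V →ₗ[F] Model c) hg f v
  have h2 : g (aeval T f v) = f • g v := this
  rw [h2, Pi.smul_apply]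

theorem smul_mk_one {h : F[X]} (f : F[X]) :
    f • (Submodule.Quotient.mk (1 : F[X]) : Q h) = Submodule.Quotient.mk f := by
  rw [← Submodule.Quotient.mk_smul, smul_eq_mul, mul_one]

theorem mk_one_ne_zero {h : F[X]} (hd : 0 < h.natDegree) :
    (Submodule.Quotient.mk (1 : F[X]) : Q h) ≠ 0 := by
  intro h0
  rw [Submodule.Quotient.mk_eq_zero, Submodule.mem_span_singleton] at h0
  obtain ⟨a, ha⟩ := h0
  have h1 : IsUnit h := IsUnit.of_mul_eq_one a (by rw [mul_comm]; exact ha)
  have := natDegree_eq_zero_of_isUnit h1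
  omega

theorem adm_natDegree_pos {a : F[X] × ℕ} (h : Adm a) : 0 < (a.1 ^ a.2).natDegree := by
  obtain ⟨h1, h2, h3⟩ := h
  rw [h1.natDegree_pow]
  exact Nat.mul_pos h3 (h2.natDegree_pos)

theorem adm_ne_zero {a : F[X] × ℕ} (h : Adm a) : (a.1 ^ a.2) ≠ 0 := by
  have := adm_natDegree_pos h
  intro h0
  rw [h0] at this
  simp at this

/-- A single block. -/
theorem single_block (g : V ≃ₗ[F] Model c) (T : V →ₗ[F] V)
    (hg : ∀ v, g (T v) = (X : F[X]) • g v) (i : Fin k) :
    unitV g i ∈ supp g {i} ∧ ∀ x ∈ supp g {i}, ∃ f : F[X], aeval T f (unitV g i) = x := by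
  classical
  constructor
  · intro l hl
    rw [map_unitV]
    have : l ≠ i := by simpa using hl
    exact Pi.single_eq_of_ne this _
  · intro x hx
    obtain ⟨r, hr⟩ := Submodule.Quotient.mk_surjective _ (g x i)
    refine ⟨r, g.injective ?_⟩
    funext l
    rw [aeval_unitV_apply g T hg, map_unitV]
    by_cases hl : l = i
    · subst hl
      rw [Pi.single_eq_same, smul_mk_one, hr]
    · rw [Pi.single_eq_of_ne hl, smul_zero, hx l (by simpa using hl)]

theorem finrank_single_block [FiniteDimensional F V] (g : V ≃ₗ[F] Model c) (hc : ∀ i, Adm (c i)) (i : Fin k) :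
    finrank F (supp g {i}) = ((c i).1 ^ (c i).2).natDegree := by
  classical
  rw [← finrank_Q]
  haveI := Q_finite_of_ne (adm_ne_zero (hc i))
  let ψ : Q ((c i).1 ^ (c i).2) →ₗ[F] V :=
    (g.symm : Model c →ₗ[F] V) ∘ₗ LinearMap.single F (fun j => Q ((c j).1 ^ (c j).2)) i
  have hψ : ∀ y, g (ψ y) = Pi.single i y := by
    intro y
    change g (g.symm _) = _
    rw [g.apply_symm_apply]
    rfl
  have hinj : Function.Injective ψ := by
    intro a b hab
    have h1 := congrArg g hab
    rw [hψ, hψ] at h1
    exact Pi.single_injective i h1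
  have hr : LinearMap.range ψ = supp g {i} := by
    apply le_antisymm
    · rintro _ ⟨y, rfl⟩ l hl
      rw [hψ]
      exact Pi.single_eq_of_ne (by simpa using hl) _
    · intro x hx
      refine ⟨g x i, g.injective ?_⟩
      rw [hψ]
      funext l
      by_cases hl : l = i
      · subst hl
        rw [Pi.single_eq_same]
      · rw [Pi.single_eq_of_ne hl, hx l (by simpa using hl)]
  rw [← hr, LinearMap.finrank_range_of_inj hinj]

end Model

section Split

variable {V : Type v} [AddCommGroup V] [Module F V] [FiniteDimensional F V]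

/-- A cyclic summand. -/
theorem exists_split [Nontrivial V] (T : V →ₗ[F] V) :
    ∃ W₁ W₂ : Submodule F V, IsCompl W₁ W₂ ∧ (∀ x ∈ W₁, T x ∈ W₁) ∧ (∀ x ∈ W₂, T x ∈ W₂) ∧
      0 < finrank F W₂ ∧ ∃ z ∈ W₂, ∀ x ∈ W₂, ∃ f : F[X], aeval T f z = x := by
  obtain ⟨k, c, g, hc, hg⟩ := exists_model T
  have hk : 0 < k := by
    rcases Nat.eq_zero_or_pos k with h | h
    · subst h
      exfalso
      obtain ⟨a, b, hab⟩ := exists_pair_ne V
      exact hab (g.injective (Subsingleton.elim _ _))
    · exact h
  let i : Fin k := ⟨0, hk⟩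
  obtain ⟨h1, h2⟩ := single_block g T hg i
  refine ⟨supp g {i}ᶜ, supp g {i}, isCompl_supp g {i}, supp_invariant g T hg _, supp_invariant g T hg _,
    ?_, unitV g i, h1, h2⟩
  rw [finrank_single_block g hc]
  exact adm_natDegree_pos (hc i)

/-- A cyclic summand of dimension at least two of a nonscalar endomorphism. -/
theorem exists_decomp (T : V →ₗ[F] V) (hT : ¬ ∃ a : F, ∀ x, T x = a • x) :
    ∃ W U : Submodule F V, IsCompl W U ∧ (∀ x ∈ W, T x ∈ W) ∧ (∀ x ∈ U, T x ∈ U) ∧
      2 ≤ finrank F U ∧ ∃ z ∈ U, ∀ x ∈ U, ∃ f : F[X], aeval T f z = x := by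
  classical
  obtain ⟨k, c, g, hc, hg⟩ := exists_model T
  by_cases hA : ∃ i, 2 ≤ ((c i).1 ^ (c i).2).natDegree
  · obtain ⟨i, hi⟩ := hA
    obtain ⟨h1, h2⟩ := single_block g T hg i
    refine ⟨supp g {i}ᶜ, supp g {i}, isCompl_supp g {i}, supp_invariant g T hg _, supp_invariant g T hg _,
      ?_, unitV g i, h1, h2⟩
    rw [finrank_single_block g hc]
    exact hi
  push Not at hA
  -- all blocks are one-dimensional
  have hd1 : ∀ i, ((c i).1 ^ (c i).2).natDegree = 1 := fun i => by
    have h1 := hA i
    have h2 := adm_natDegree_pos (hc i)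
    omega
  have hmonic : ∀ i, ((c i).1 ^ (c i).2).Monic := fun i => (hc i).1.pow _
  let l : Fin k → F := fun i => - ((c i).1 ^ (c i).2).coeff 0
  have hh : ∀ i, (c i).1 ^ (c i).2 = X - C (l i) := by
    intro i
    conv_lhs => rw [(hmonic i).eq_X_add_C (hd1 i)]
    simp [l, sub_eq_add_neg]
  have hmk : ∀ i (r : F[X]), (Submodule.Quotient.mk ((X - C (l i)) * r) : Q ((c i).1 ^ (c i).2)) = 0 := by
    intro i r
    rw [Submodule.Quotient.mk_eq_zero, Submodule.mem_span_singleton]
    exact ⟨r, by rw [hh i, smul_eq_mul, mul_comm]⟩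
  have hX : ∀ i (y : Q ((c i).1 ^ (c i).2)), (X : F[X]) • y = (l i) • y := by
    intro i y
    obtain ⟨r, rfl⟩ := Submodule.Quotient.mk_surjective _ y
    have h1 := hmk i r
    rw [sub_mul, Submodule.Quotient.mk_sub, sub_eq_zero] at h1
    have h2 : (Submodule.Quotient.mk (X * r) : Q ((c i).1 ^ (c i).2)) = (X : F[X]) • Submodule.Quotient.mk r :=
      rfl
    have h3 : (Submodule.Quotient.mk (C (l i) * r) : Q ((c i).1 ^ (c i).2)) =
        (l i) • Submodule.Quotient.mk r := by
      rw [C_mul']
      rfl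
    rw [← h2, ← h3, h1]
  have hTx : ∀ x i, g (T x) i = l i • g x i := by
    intro x i
    rw [hg, Pi.smul_apply, hX]
  obtain ⟨i, j, hij⟩ : ∃ i j, l i ≠ l j := by
    by_contra hcon
    push Not at hcon
    apply hT
    by_cases hk : 0 < k
    · refine ⟨l ⟨0, hk⟩, fun x => g.injective ?_⟩
      funext i
      rw [hTx, hcon i ⟨0, hk⟩, map_smul, Pi.smul_apply]
    · refine ⟨0, fun x => g.injective ?_⟩
      funext i
      exact absurd i.2 (by omega)
  have hne : i ≠ j := fun h => hij (by rw [h])
  let S : Set (Fin k) := {i, j}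
  let z : V := unitV g i + unitV g j
  have hzi : ∀ f : F[X], g (aeval T f z) i = Submodule.Quotient.mk f := by
    intro f
    rw [aeval_unitV_apply g T hg, map_add, Pi.add_apply, map_unitV, map_unitV, Pi.single_eq_same,
      Pi.single_eq_of_ne hne, add_zero, smul_mk_one]
  have hzj : ∀ f : F[X], g (aeval T f z) j = Submodule.Quotient.mk f := by
    intro f
    rw [aeval_unitV_apply g T hg, map_add, Pi.add_apply, map_unitV, map_unitV, Pi.single_eq_same,
      Pi.single_eq_of_ne hne.symm, zero_add, smul_mk_one]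
  have hzl : ∀ (f : F[X]) a, a ∉ S → g (aeval T f z) a = 0 := by
    intro f a ha
    have h1 : a ≠ i := fun h => ha (Or.inl h)
    have h2 : a ≠ j := fun h => ha (Or.inr h)
    rw [aeval_unitV_apply g T hg, map_add, Pi.add_apply, map_unitV, map_unitV, Pi.single_eq_of_ne h1,
      Pi.single_eq_of_ne h2, add_zero, smul_zero]
  have hzS : z ∈ supp g S := by
    have h1 := hzl 1
    simpa [mem_supp] using h1
  refine ⟨supp g Sᶜ, supp g S, isCompl_supp g S, supp_invariant g T hg _, supp_invariant g T hg _,
    ?_, z, hzS, ?_⟩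
  · -- two independent vectors
    have hmi : unitV g i ∈ supp g S := by
      intro a ha
      have h1 : a ≠ i := fun h => ha (Or.inl h)
      rw [map_unitV, Pi.single_eq_of_ne h1]
    have hmj : unitV g j ∈ supp g S := by
      intro a ha
      have h2 : a ≠ j := fun h => ha (Or.inr h)
      rw [map_unitV, Pi.single_eq_of_ne h2]
    have hli : LinearIndependent F ![(⟨unitV g i, hmi⟩ : supp g S), ⟨unitV g j, hmj⟩] := by
      rw [LinearIndependent.pair_iff]
      intro a b hab
      have h0 : a • unitV g i + b • unitV g j = 0 := congrArg Subtype.val hab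
      have h1 := congrFun (congrArg g h0) i
      have h2 := congrFun (congrArg g h0) j
      rw [map_add, map_smul, map_smul, map_unitV, map_unitV, map_zero, Pi.add_apply, Pi.smul_apply,
        Pi.smul_apply, Pi.single_eq_same, Pi.single_eq_of_ne hne, smul_zero, add_zero] at h1
      rw [map_add, map_smul, map_smul, map_unitV, map_unitV, map_zero, Pi.add_apply, Pi.smul_apply,
        Pi.smul_apply, Pi.single_eq_same, Pi.single_eq_of_ne hne.symm, smul_zero, zero_add] at h2
      have hne1 : (Submodule.Quotient.mk (1 : F[X]) : Q ((c i).1 ^ (c i).2)) ≠ 0 :=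
        mk_one_ne_zero (adm_natDegree_pos (hc i))
      have hne2 : (Submodule.Quotient.mk (1 : F[X]) : Q ((c j).1 ^ (c j).2)) ≠ 0 :=
        mk_one_ne_zero (adm_natDegree_pos (hc j))
      exact ⟨(smul_eq_zero.1 h1).resolve_right hne1, (smul_eq_zero.1 h2).resolve_right hne2⟩
    have := hli.fintype_card_le_finrank
    simpa using this
  · -- the generation
    intro x hx
    obtain ⟨ri, hri⟩ := Submodule.Quotient.mk_surjective _ (g x i)
    obtain ⟨rj, hrj⟩ := Submodule.Quotient.mk_surjective _ (g x j)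
    have hli : l i - l j ≠ 0 := sub_ne_zero.2 hij
    have hlj : l j - l i ≠ 0 := sub_ne_zero.2 hij.symm
    let a : F[X] := C (l i - l j)⁻¹ * (X - C (l j))
    let b : F[X] := C (l j - l i)⁻¹ * (X - C (l i))
    have ha1 : a - 1 = (X - C (l i)) * C (l i - l j)⁻¹ := by
      have : (1 : F[X]) = C (l i - l j)⁻¹ * C (l i - l j) := by
        rw [← C_mul, inv_mul_cancel₀ hli, C_1]
      simp only [a]
      conv_lhs => rw [this]
      rw [C_sub]
      ring
    have hb1 : b - 1 = (X - C (l j)) * C (l j - l i)⁻¹ := by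
      have : (1 : F[X]) = C (l j - l i)⁻¹ * C (l j - l i) := by
        rw [← C_mul, inv_mul_cancel₀ hlj, C_1]
      simp only [b]
      conv_lhs => rw [this]
      rw [C_sub]
      ring
    refine ⟨ri * a + rj * b, g.injective ?_⟩
    funext m
    by_cases hmS : m ∈ S
    · rcases hmS with hm | hm
      · subst hm
        rw [hzi, ← hri, ← sub_eq_zero, ← Submodule.Quotient.mk_sub]
        have : ri * a + rj * b - ri = (X - C (l m)) * (ri * C (l m - l j)⁻¹ + rj * C (l j - l m)⁻¹) := by
          have h1 : ri * a + rj * b - ri = ri * (a - 1) + rj * b := by ring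
          rw [h1, ha1]
          simp only [b]
          ring
        rw [this]
        exact hmk m _
      · have hm' : m = j := hm
        subst hm'
        rw [hzj, ← hrj, ← sub_eq_zero, ← Submodule.Quotient.mk_sub]
        have : ri * a + rj * b - rj = (X - C (l m)) * (ri * C (l i - l m)⁻¹ + rj * C (l m - l i)⁻¹) := by
          have h1 : ri * a + rj * b - rj = ri * a + rj * (b - 1) := by ring
          rw [h1, hb1]
          simp only [a]
          ring
        rw [this]
        exact hmk m _
    · rw [hzl _ _ hmS, hx m hmS]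

end Split

end Cfsg.Agent.Lib.Linalg.Lev
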