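import Mathlib
import Cfsg.Agent.Lib.Linalg.Lev.Decomp

/-!
# Nonscalar endomorphisms of determinant one are commutators
-/

set_option autoImplicit false

open Polynomial Module

namespace Cfsg.Agent.Lib.Linalg.Lev

universe u v

variable {F : Type u} [Field F]

/-- Existence of the data. -/
theorem exists_data {t : F} (ht : t ≠ 0) : ∀ (n : ℕ) (W : Type v) [AddCommGroup W] [Module F W]
    [FiniteDimensional F W], finrank F W = n → ∀ Y : W →ₗ[F] W, Function.Injective Y →
    ∃ (s : W →ₗ[F] W) (τ : W →ₗ[F] F), Data Y s τ t := by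
  intro n
  induction n using Nat.strong_induction_on with
  | _ n ih =>
    intro W _ _ _ hn Y hY
    rcases subsingleton_or_nontrivial W with hW | hW
    · exact ⟨0, 0, data_of_subsingleton Y t⟩
    obtain ⟨W₁, W₂, hc, h1, h2, hpos, z, hz, hgen⟩ := exists_split Y
    let Y₁ : W₁ →ₗ[F] W₁ := Y.restrict h1
    let Y₂ : W₂ →ₗ[F] W₂ := Y.restrict h2
    have hY₁ : Function.Injective Y₁ := fun a b hab =>
      Subtype.ext (hY (congrArg Subtype.val hab))
    have hY₂ : Function.Injective Y₂ := fun a b hab =>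
      Subtype.ext (hY (congrArg Subtype.val hab))
    have hdim : finrank F W₁ + finrank F W₂ = finrank F W := Submodule.finrank_add_eq_of_isCompl hc
    obtain ⟨s₁, τ₁, hd₁⟩ := ih (finrank F W₁) (by omega) W₁ rfl Y₁ hY₁
    let N : W₂ →ₗ[F] W₂ := t⁻¹ • (Y₂ - LinearMap.id)
    have hYN : ∀ x, Y₂ x = x + t • N x := by
      intro x
      simp [N, smul_smul, mul_inv_cancel₀ ht]
    have hgenN : ∀ x : W₂, ∃ g : F[X], aeval N g (⟨z, hz⟩ : W₂) = x := by
      intro x
      obtain ⟨f, hf⟩ := hgen x x.2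
      refine ⟨f.comp (C t * X + 1), ?_⟩
      have h3 : aeval N (C t * X + 1) = Y₂ := by
        refine LinearMap.ext fun y => ?_
        rw [map_add, map_mul, aeval_C, aeval_X, map_one, LinearMap.add_apply, Module.End.mul_apply,
          Module.End.one_apply, hYN, add_comm]
        rfl
      rw [aeval_comp, h3]
      apply Subtype.ext
      rw [coe_aeval_restrict]
      exact hf
    obtain ⟨σ, ω, ϖ, c, e, hch, -, -⟩ := exists_chain N ⟨z, hz⟩ hgenN hpos
    obtain ⟨a, hb⟩ := exists_block_of_chain hch hYN (LinearMap.injective_iff_surjective.1 hY₂)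
    have hd := Data.prod hd₁ hb
    let e₀ : (W₁ × W₂) ≃ₗ[F] W := Submodule.prodEquivOfIsCompl W₁ W₂ hc
    refine ⟨_, _, hd.map e₀ Y fun x => ?_⟩
    obtain ⟨x₁, x₂⟩ := x
    change Y ((x₁ : W) + (x₂ : W)) = ((Y₁ x₁ : W₁) : W) + ((Y₂ x₂ : W₂) : W)
    rw [map_add]
    rfl

section Main

variable {V : Type v} [AddCommGroup V] [Module F V] [FiniteDimensional F V]

/-- The restriction of an injective endomorphism to an invariant subspace, as an equivalence. -/
noncomputable def resEquiv (T : V →ₗ[F] V) (hT : Function.Injective T) (W : Submodule F V)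
    (h : ∀ x ∈ W, T x ∈ W) : W ≃ₗ[F] W :=
  LinearEquiv.ofInjectiveEndo (T.restrict h) (fun a b hab =>
    Subtype.ext (hT (congrArg Subtype.val hab)))

theorem resEquiv_apply (T : V →ₗ[F] V) (hT : Function.Injective T) (W : Submodule F V)
    (h : ∀ x ∈ W, T x ∈ W) (x : W) : ((resEquiv T hT W h x : W) : V) = T x := rfl

/-- The commutator statement from a decomposition. -/
theorem isComm_of_data (T : V →ₗ[F] V) (hinj : Function.Injective T) (hdet : LinearMap.det T = 1)
    (W U : Submodule F V) (hc : IsCompl W U) (hW : ∀ x ∈ W, T x ∈ W) (hU : ∀ x ∈ U, T x ∈ U)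
    (hU2 : 2 ≤ finrank F U) (z : V) (hz : z ∈ U) (hgen : ∀ x ∈ U, ∃ f : F[X], aeval T f z = x)
    {t : F} (ht : t ≠ 0) (hsep' : t ≠ 1 ∨ finrank F U = 2 ∨ W = ⊥)
    (p : F[X]) (hp : p.Monic) (hpd : p.natDegree + 1 = finrank F V) (κ : F)
    (hκp : p.eval κ ≠ 0) (hκ1 : (-1) ^ p.natDegree * p.coeff 0 * κ = 1) : IsComm T := by
  classical
  let A : W ≃ₗ[F] W := resEquiv T hinj W hW
  let Z : U ≃ₗ[F] U := resEquiv T hinj U hU
  obtain ⟨s, τ, hd⟩ := exists_data ht _ W rfl (A.symm : W →ₗ[F] W) A.symm.injective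
  have hgen' : ∀ x : U, ∃ g : F[X], aeval (Z : U →ₗ[F] U) g (⟨z, hz⟩ : U) = x := by
    intro x
    obtain ⟨f, hf⟩ := hgen x x.2
    refine ⟨f, Subtype.ext ?_⟩
    have := coe_aeval_restrict U T hU f ⟨z, hz⟩
    exact this.trans hf
  obtain ⟨σ, ω, ϖ, c, e, hch, hϖ, hsep2⟩ := exists_chain (Z : U →ₗ[F] U) ⟨z, hz⟩ hgen' (by omega)
  let e₀ : (W × U) ≃ₗ[F] V := Submodule.prodEquivOfIsCompl W U hc
  have he₀ : ∀ x : W × U, e₀ x = (x.1 : V) + (x.2 : V) := fun _ => rfl
  have hconj : ∀ x : W × U, e₀ ((A.prodCongr Z) x) = T (e₀ x) := by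
    rintro ⟨x₁, x₂⟩
    rw [he₀, he₀, map_add]
    rfl
  have hdet' : LinearMap.det ((A.prodCongr Z : (W × U) ≃ₗ[F] (W × U)) : (W × U) →ₗ[F] (W × U)) = 1 := by
    have h1 : ((A.prodCongr Z : (W × U) ≃ₗ[F] (W × U)) : (W × U) →ₗ[F] (W × U)) =
        (e₀.symm : V →ₗ[F] (W × U)) ∘ₗ T ∘ₗ (e₀ : (W × U) →ₗ[F] V) := by
      refine LinearMap.ext fun x => e₀.injective ?_
      change e₀ ((A.prodCongr Z) x) = e₀ (e₀.symm (T (e₀ x)))
      rw [hconj, e₀.apply_symm_apply]
    rw [h1]
    exact (LinearMap.det_conj T e₀.symm).trans hdet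
  have hsep : (∀ u, ω u = 0 → ϖ u = 0 → u = 0) ∨ (∀ x, A.symm (s x) = x → x = 0) := by
    rcases hsep' with h | h | h
    · exact Or.inr (hd.fix h)
    · exact Or.inl (hsep2 h)
    · refine Or.inr fun x _ => ?_
      exact Subtype.ext ((Submodule.mem_bot F).1 (h.le x.2))
  have hfr : finrank F (W × U) = finrank F V := e₀.finrank_eq
  have hmain := isComm_prod A Z hd hch (hϖ hU2) hsep hdet' p hp (by rw [hfr]; exact hpd) κ hκp hκ1
  exact hmain.of_conj e₀ hconj

/-- A suitable polynomial in dimension at least three. -/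
theorem exists_poly_of_three (n : ℕ) (hn : 3 ≤ n) : ∃ (p : F[X]) (κ : F), p.Monic ∧ p.natDegree + 1 = n ∧
    p.eval κ ≠ 0 ∧ (-1) ^ p.natDegree * p.coeff 0 * κ = 1 := by
  set d := n - 1 with hd
  have hd2 : 2 ≤ d := by omega
  have key : ∀ c : F, (X ^ d + (C c * X + C ((-1) ^ d)) : F[X]).Monic ∧
      (X ^ d + (C c * X + C ((-1) ^ d)) : F[X]).natDegree = d ∧
      (X ^ d + (C c * X + C ((-1) ^ d)) : F[X]).coeff 0 = (-1) ^ d := by
    intro c
    have hdeg : (C c * X + C ((-1) ^ d) : F[X]).degree < (d : ℕ) := by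
      refine lt_of_le_of_lt degree_linear_le ?_
      exact_mod_cast (by omega : 1 < d)
    refine ⟨monic_X_pow_add hdeg, ?_, ?_⟩
    · rw [natDegree_add_eq_left_of_degree_lt (by rwa [degree_X_pow]), natDegree_X_pow]
    · rw [coeff_add, coeff_add, coeff_X_pow, if_neg (by omega), coeff_C_mul, coeff_X_zero, coeff_C_zero]
      ring
  have hε : ((-1 : F) ^ d) * (-1) ^ d = 1 := by
    rw [← mul_pow]
    simp
  by_cases h0 : (1 : F) + (-1) ^ d = 0
  · refine ⟨X ^ d + (C 1 * X + C ((-1) ^ d)), 1, (key 1).1, by rw [(key 1).2.1]; omega, ?_, ?_⟩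
    · simp only [eval_add, eval_pow, eval_X, eval_mul, eval_C, one_pow, mul_one]
      intro h
      have h1 : (1 : F) + (1 + (-1) ^ d) = 0 := h
      rw [h0, add_zero] at h1
      exact one_ne_zero h1
    · rw [(key 1).2.1, (key 1).2.2, mul_one, hε]
  · refine ⟨X ^ d + (C 0 * X + C ((-1) ^ d)), 1, (key 0).1, by rw [(key 0).2.1]; omega, ?_, ?_⟩
    · simp only [eval_add, eval_pow, eval_X, eval_mul, eval_C, one_pow, mul_one, zero_add, C_0, zero_mul]
      exact h0
    · rw [(key 0).2.1, (key 0).2.2, mul_one, hε]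

/-- The polynomial in dimension two. -/
theorem exists_poly_of_two {ρ : F} (h0 : ρ ≠ 0) (h1 : ρ ^ 2 ≠ 1) : ∃ (p : F[X]) (κ : F), p.Monic ∧
    p.natDegree + 1 = 2 ∧ p.eval κ ≠ 0 ∧ (-1) ^ p.natDegree * p.coeff 0 * κ = 1 := by
  refine ⟨X - C ρ, ρ⁻¹, monic_X_sub_C ρ, by rw [natDegree_X_sub_C], ?_, ?_⟩
  · rw [eval_sub, eval_X, eval_C, sub_ne_zero]
    intro h
    apply h1
    have : ρ * ρ⁻¹ = 1 := mul_inv_cancel₀ h0
    rw [h] at this
    rw [sq]
    exact this
  · rw [natDegree_X_sub_C, coeff_sub, coeff_X_zero, coeff_C_zero]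
    field_simp
    ring

/-- Injective endomorphisms have nonzero determinant. -/
theorem det_ne_zero_of_injective (T : V →ₗ[F] V) (hT : Function.Injective T) : LinearMap.det T ≠ 0 := by
  have := (LinearEquiv.isUnit_det' (LinearEquiv.ofInjectiveEndo T hT)).ne_zero
  exact this

/-- Nonscalar, with a scalar different from `0`, `1`. -/
theorem isComm_of_nonscalar_of_exists (T : V →ₗ[F] V) (hinj : Function.Injective T)
    (hdet : LinearMap.det T = 1) (hT : ¬ ∃ a : F, ∀ x, T x = a • x) {t : F} (ht0 : t ≠ 0) (ht1 : t ≠ 1)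
    (p : F[X]) (hp : p.Monic) (hpd : p.natDegree + 1 = finrank F V) (κ : F)
    (hκp : p.eval κ ≠ 0) (hκ1 : (-1) ^ p.natDegree * p.coeff 0 * κ = 1) : IsComm T := by
  obtain ⟨W, U, hc, hW, hU, hU2, z, hz, hgen⟩ := exists_decomp T hT
  exact isComm_of_data T hinj hdet W U hc hW hU hU2 z hz hgen ht0 (Or.inl ht1) p hp hpd κ hκp hκ1

end Main

/-- Over the field with two elements. -/
theorem isComm_of_two (hF : ∀ a : F, a = 0 ∨ a = 1) : ∀ (n : ℕ) (V : Type v) [AddCommGroup V] [Module F V]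
    [FiniteDimensional F V], finrank F V = n → n ≠ 2 → ∀ T : V →ₗ[F] V, Function.Injective T → IsComm T := by
  intro n
  induction n using Nat.strong_induction_on with
  | _ n ih =>
    intro V _ _ _ hn hn2 T hinj
    have hdet1 : ∀ {E : Type v} [AddCommGroup E] [Module F E] [FiniteDimensional F E] (S : E →ₗ[F] E),
        Function.Injective S → LinearMap.det S = 1 := by
      intro E _ _ _ S hS
      exact (hF _).resolve_left (det_ne_zero_of_injective S hS)
    have hsc : ∀ {E : Type v} [AddCommGroup E] [Module F E] [FiniteDimensional F E] (S : E →ₗ[F] E),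
        Function.Injective S → (∃ a : F, ∀ x, S x = a • x) → IsComm S := by
      intro E _ _ _ S hS ⟨a, ha⟩
      rcases hF a with h | h
      · have : Subsingleton E := by
          refine ⟨fun x y => hS ?_⟩
          rw [ha, ha, h, zero_smul, zero_smul]
        exact isComm_of_subsingleton S
      · have : S = LinearMap.id := by
          refine LinearMap.ext fun x => ?_
          rw [ha, h, one_smul]
          rfl
        rw [this]
        exact isComm_id
    by_cases hT : ∃ a : F, ∀ x, T x = a • x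
    · exact hsc T hinj hT
    obtain ⟨W, U, hc, hW, hU, hU2, z, hz, hgen⟩ := exists_decomp T hT
    have hdim : finrank F W + finrank F U = finrank F V := Submodule.finrank_add_eq_of_isCompl hc
    have hone : (1 : F) ≠ 0 := one_ne_zero
    rcases Nat.lt_or_ge (finrank F U) 3 with hU3 | hU3
    · -- `U` is two-dimensional
      have hU2' : finrank F U = 2 := by omega
      obtain ⟨p, κ, hp, hpd, hκp, hκ1⟩ := exists_poly_of_three (F := F) (finrank F V) (by omega)
      exact isComm_of_data T hinj (hdet1 T hinj) W U hc hW hU hU2 z hz hgen hone (Or.inr (Or.inl hU2'))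
        p hp hpd κ hκp hκ1
    -- the restrictions
    let T₁ : W →ₗ[F] W := T.restrict hW
    let T₂ : U →ₗ[F] U := T.restrict hU
    have hT₁ : Function.Injective T₁ := fun a b hab => Subtype.ext (hinj (congrArg Subtype.val hab))
    have hT₂ : Function.Injective T₂ := fun a b hab => Subtype.ext (hinj (congrArg Subtype.val hab))
    have hT₂c : IsComm T₂ := by
      obtain ⟨p, κ, hp, hpd, hκp, hκ1⟩ := exists_poly_of_three (F := F) (finrank F U) hU3
      refine isComm_of_data T₂ hT₂ (hdet1 T₂ hT₂) ⊥ ⊤ isCompl_bot_top (by simp) (by simp) ?_ ⟨z, hz⟩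
        Submodule.mem_top ?_ hone (Or.inr (Or.inr rfl)) p hp hpd κ hκp hκ1
      · rw [finrank_top]
        exact hU2
      · intro x _
        obtain ⟨f, hf⟩ := hgen x x.2
        exact ⟨f, Subtype.ext ((coe_aeval_restrict U T hU f ⟨z, hz⟩).trans hf)⟩
    have combine : IsComm T₁ → IsComm T := by
      intro h
      have h2 := h.prod hT₂c
      refine h2.of_conj (Submodule.prodEquivOfIsCompl W U hc) ?_
      rintro ⟨x₁, x₂⟩
      change ((T₁ x₁ : W) : V) + ((T₂ x₂ : U) : V) = T ((x₁ : V) + (x₂ : V))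
      rw [map_add]
      rfl
    by_cases hW2 : finrank F W = 2
    · by_cases hT₁s : ∃ a : F, ∀ x, T₁ x = a • x
      · exact combine (hsc T₁ hT₁ hT₁s)
      · obtain ⟨W', U', hc', hW', hU', hU2', z', hz', hgen'⟩ := exists_decomp T₁ hT₁s
        have htop : U' = ⊤ := Submodule.eq_top_of_finrank_eq (by
          have := Submodule.finrank_le U'
          omega)
        obtain ⟨p, κ, hp, hpd, hκp, hκ1⟩ := exists_poly_of_three (F := F) (finrank F V) (by omega)
        refine isComm_of_data T hinj (hdet1 T hinj) U W hc.symm hU hW (by omega) z'.1 z'.2 (fun x hx => ?_) hone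
          (Or.inr (Or.inl hW2)) p hp hpd κ hκp hκ1
        obtain ⟨f, hf⟩ := hgen' ⟨x, hx⟩ (by rw [htop]; trivial)
        exact ⟨f, (coe_aeval_restrict W T hW f z').symm.trans (congrArg Subtype.val hf)⟩
    · exact combine (ih _ (by omega) W rfl hW2 T₁ hT₁)

/-- Nonscalar endomorphisms of determinant one are commutators. -/
theorem isComm_of_nonscalar {V : Type v} [AddCommGroup V] [Module F V] [FiniteDimensional F V]
    (T : V →ₗ[F] V) (hinj : Function.Injective T) (hdet : LinearMap.det T = 1)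
    (hT : ¬ ∃ a : F, ∀ x, T x = a • x)
    (hV : 3 ≤ finrank F V ∨ (finrank F V = 2 ∧ ∃ ρ : F, ρ ≠ 0 ∧ ρ ^ 2 ≠ 1)) : IsComm T := by
  by_cases hF : ∀ a : F, a = 0 ∨ a = 1
  · rcases hV with h | ⟨-, ρ, h0, h1⟩
    · exact isComm_of_two hF _ V rfl (by omega) T hinj
    · exfalso
      rcases hF ρ with h | h
      · exact h0 h
      · exact h1 (by rw [h, one_pow])
  · push Not at hF
    obtain ⟨t, ht0, ht1⟩ := hF
    rcases hV with h | ⟨h, ρ, h0, h1⟩
    · obtain ⟨p, κ, hp, hpd, hκp, hκ1⟩ := exists_poly_of_three (F := F) (finrank F V) h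
      exact isComm_of_nonscalar_of_exists T hinj hdet hT ht0 ht1 p hp hpd κ hκp hκ1
    · obtain ⟨p, κ, hp, hpd, hκp, hκ1⟩ := exists_poly_of_two h0 h1
      exact isComm_of_nonscalar_of_exists T hinj hdet hT ht0 ht1 p hp (by rw [h]; exact hpd) κ hκp hκ1

end Cfsg.Agent.Lib.Linalg.Lev
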