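import Mathlib
import Cfsg.Agent.Lib.Linalg.Lev.Main

/-!
# Scalars of determinant one are commutators, over a finite field
-/

set_option autoImplicit false

open Polynomial Module

namespace Cfsg.Agent.Lib.Linalg.Lev

open Cfsg.Agent.Lib.Linalg.RCF

universe u v

variable {F : Type u} [Field F]

section Block

theorem det_block (α β : F) (hα : α ≠ 0) (m : ℕ) :
    (Matrix.fromBlocks (α • 1) (-β • 1) (β • 1) (α • 1) :
      Matrix (Fin m ⊕ Fin m) (Fin m ⊕ Fin m) F).det = (α ^ 2 + β ^ 2) ^ m := by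
  letI : Invertible (α • (1 : Matrix (Fin m) (Fin m) F)) :=
    ⟨α⁻¹ • 1, by simp [smul_smul, mul_inv_cancel₀ hα], by simp [smul_smul, inv_mul_cancel₀ hα]⟩
  rw [Matrix.det_fromBlocks₁₁]
  have h1 : ⅟(α • (1 : Matrix (Fin m) (Fin m) F)) = α⁻¹ • 1 := rfl
  have h2 : (α • (1 : Matrix (Fin m) (Fin m) F)) - (β • 1) * ⅟(α • (1 : Matrix (Fin m) (Fin m) F)) * (-β • 1) =
      (α + β ^ 2 * α⁻¹) • 1 := by
    rw [h1]
    simp only [Matrix.smul_mul, Matrix.mul_smul, Matrix.one_mul, Matrix.mul_one, smul_smul, ← sub_smul]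
    congr 1
    ring
  rw [h2, Matrix.det_smul, Matrix.det_smul, Matrix.det_one, mul_one, mul_one, Fintype.card_fin, ← mul_pow]
  congr 1
  field_simp

end Block

section Cyc

variable {V : Type v} [AddCommGroup V] [Module F V] [FiniteDimensional F V]

/-- The diagonal twist. -/
theorem exists_twist {n : ℕ} {D : V →ₗ[F] V} {z : V} {w : F} (h : IsCyc D (X ^ n - C w) z)
    (hn : finrank F V = n) (hn0 : 0 < n) (a : F) (ha : a ^ n = 1) :
    ∃ τ : V →ₗ[F] V, (∀ x, τ (D x) = a • D (τ x)) ∧
      LinearMap.det τ = a ^ (∑ i ∈ Finset.range n, i) := by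
  subst hn
  classical
  let b := h.basis
  have hb : ∀ k : Fin (finrank F V), b k = (D ^ (k : ℕ)) z := h.basis_apply
  let M : Matrix (Fin (finrank F V)) (Fin (finrank F V)) F :=
    Matrix.diagonal (fun k : Fin (finrank F V) => a ^ (k : ℕ))
  let τ : V →ₗ[F] V := Matrix.toLin b b M
  have hτb : ∀ k, τ (b k) = a ^ (k : ℕ) • b k := by
    intro k
    change Matrix.toLin b b M (b k) = _
    rw [Matrix.toLin_self]
    simp [M, Matrix.diagonal_apply, ite_smul]
  have hDn : ∀ x, (D ^ finrank F V) x = w • x := by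
    intro x
    have h1 := h.aeval_eq_zero
    have h2 := LinearMap.congr_fun h1 x
    rw [map_sub, map_pow, aeval_X, aeval_C, LinearMap.sub_apply, LinearMap.zero_apply, sub_eq_zero] at h2
    exact h2
  refine ⟨τ, ?_, ?_⟩
  · have hcomp : τ ∘ₗ D = a • (D ∘ₗ τ) := by
      refine b.ext fun k => ?_
      change τ (D (b k)) = a • D (τ (b k))
      rw [hτb, map_smul, smul_smul, ← pow_succ']
      by_cases hk : (k : ℕ) + 1 < finrank F V
      · have h1 : D (b k) = b ⟨k + 1, hk⟩ := by
          rw [hb, hb, pow_succ', Module.End.mul_apply]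
        rw [h1, hτb]
      · have hk' : (k : ℕ) + 1 = finrank F V := by omega
        have h1 : D (b k) = w • z := by
          rw [hb, ← Module.End.mul_apply, ← pow_succ', hk', hDn]
        have h2 : b ⟨0, hn0⟩ = z := by
          rw [hb]
          rfl
        have h3 : τ z = z := by
          conv_lhs => rw [← h2]
          rw [hτb, h2]
          simp
        rw [h1, hk', ha, one_smul, map_smul, h3]
    intro x
    exact LinearMap.congr_fun hcomp x
  · rw [LinearMap.det_toLin, Matrix.det_diagonal, Finset.prod_pow_eq_pow_sum,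
      Fin.sum_univ_eq_sum_range (fun i => i)]

/-- The element of the centralizer in even dimension. -/
theorem exists_even_unit {m : ℕ} {D : V →ₗ[F] V} {z : V} (h : IsCyc D (X ^ (m + m) - C (-1)) z)
    (hn : finrank F V = m + m) (α β : F) (hα : α ≠ 0) :
    ∃ u : V →ₗ[F] V, (∀ x, u (D x) = D (u x)) ∧ LinearMap.det u = (α ^ 2 + β ^ 2) ^ m := by
  classical
  have hDn : ∀ x, (D ^ (m + m)) x = - x := by
    intro x
    have h1 := h.aeval_eq_zero
    have h2 := LinearMap.congr_fun h1 x
    rw [map_sub, map_pow, aeval_X, aeval_C, LinearMap.sub_apply, LinearMap.zero_apply, sub_eq_zero] at h2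
    rw [h2, map_neg, map_one]
    rfl
  let b₀ := h.basis
  have hb₀ : ∀ k : Fin (finrank F V), b₀ k = (D ^ (k : ℕ)) z := h.basis_apply
  let b : Basis (Fin m ⊕ Fin m) F V := b₀.reindex ((finCongr hn).trans finSumFinEquiv.symm)
  have hbl : ∀ i : Fin m, b (Sum.inl i) = (D ^ (i : ℕ)) z := by
    intro i
    simp only [b, Basis.reindex_apply]
    rw [hb₀]
    simp
  have hbr : ∀ i : Fin m, b (Sum.inr i) = (D ^ (m + (i : ℕ))) z := by
    intro i
    simp only [b, Basis.reindex_apply]
    rw [hb₀]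
    simp [add_comm]
  let u : V →ₗ[F] V := α • LinearMap.id + β • D ^ m
  have hu : ∀ x, u x = α • x + β • (D ^ m) x := fun _ => rfl
  refine ⟨u, fun x => ?_, ?_⟩
  · rw [hu, hu, map_add, map_smul, map_smul, ← Module.End.mul_apply, ← Module.End.mul_apply (D) (D ^ m),
      ← pow_succ, ← pow_succ']
  · have hM : u = Matrix.toLin b b (Matrix.fromBlocks (α • 1) (-β • 1) (β • 1) (α • 1)) := by
      refine b.ext fun j => ?_
      rw [Matrix.toLin_self, Fintype.sum_sum_type]
      rcases j with i | i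
      · simp only [Matrix.fromBlocks_apply₁₁, Matrix.fromBlocks_apply₂₁, Matrix.smul_apply, Matrix.one_apply,
          smul_eq_mul, mul_ite, mul_one, mul_zero, ite_smul, zero_smul, Finset.sum_ite_eq', Finset.mem_univ,
          if_true]
        rw [hu, hbl, hbr, ← Module.End.mul_apply, ← pow_add]
      · simp only [Matrix.fromBlocks_apply₁₂, Matrix.fromBlocks_apply₂₂, Matrix.smul_apply, Matrix.one_apply,
          smul_eq_mul, mul_ite, mul_one, mul_zero, ite_smul, zero_smul, Finset.sum_ite_eq', Finset.mem_univ,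
          if_true]
        have h1 : (D ^ m) ((D ^ (m + (i : ℕ))) z) = - (D ^ (i : ℕ)) z := by
          rw [← Module.End.mul_apply, ← pow_add, ← add_assoc, pow_add, Module.End.mul_apply, hDn]
        rw [hu, hbl, hbr, h1]
        module
    rw [hM, LinearMap.det_toLin, det_block α β hα]

/-- A scalar commutator from a twisting element. -/
theorem isComm_smul_of_twist (D c : V →ₗ[F] V) (a : F) (hD : LinearMap.det D = 1)
    (hc : LinearMap.det c = 1) (hcD : ∀ x, c (D x) = a • D (c x)) :
    IsComm (a • LinearMap.id : V →ₗ[F] V) := by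
  have hD0 : LinearMap.det D ≠ 0 := by rw [hD]; exact one_ne_zero
  have hc0 : LinearMap.det c ≠ 0 := by rw [hc]; exact one_ne_zero
  let D' : V ≃ₗ[F] V := LinearMap.equivOfDetNeZero D hD0
  let c' : V ≃ₗ[F] V := LinearMap.equivOfDetNeZero c hc0
  have hD' : ∀ x, D' x = D x := fun _ => rfl
  have hc' : ∀ x, c' x = c x := fun _ => rfl
  refine ⟨c', D', hc, hD, fun x => ?_⟩
  rw [hc', hD', hcD, ← hc', c'.apply_symm_apply, ← hD', D'.apply_symm_apply]
  rfl

/-- Scalars on a cyclic space. -/
theorem isComm_smul_of_cyc {n : ℕ} {D : V →ₗ[F] V} {z : V} (h : IsCyc D (X ^ n - C ((-1) ^ (n - 1))) z)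
    (hn : finrank F V = n) (hn0 : 0 < n) (a : F) (ha : a ^ n = 1)
    (hsq : ∀ m, n = m + m → a ^ m = -1 → (-1 : F) ≠ 1 → ∃ α β : F, α ≠ 0 ∧ α ^ 2 + β ^ 2 = a) :
    IsComm (a • LinearMap.id : V →ₗ[F] V) := by
  obtain ⟨τ, hτ, hdetτ⟩ := exists_twist h hn hn0 a ha
  have hdetD : LinearMap.det D = 1 := by
    rw [h.det_eq, hn, coeff_sub, coeff_X_pow, if_neg (by omega), coeff_C_zero]
    obtain ⟨k, rfl⟩ : ∃ k, n = k + 1 := ⟨n - 1, by omega⟩
    rw [Nat.add_sub_cancel, pow_succ]
    have : ((-1 : F) ^ k) * (-1) ^ k = 1 := by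
      rw [← mul_pow]
      simp
    linear_combination this
  have hsum := Finset.sum_range_id_mul_two n
  rcases Nat.even_or_odd' n with ⟨r, hr | hr⟩
  · -- even
    have hN : (∑ i ∈ Finset.range n, i) = r * (2 * r - 1) := by
      rw [hr] at hsum ⊢
      have : 2 * r * (2 * r - 1) = (r * (2 * r - 1)) * 2 := by ring
      omega
    have hr0 : 0 < r := by omega
    have hsq1 : (a ^ r) * (a ^ r) = 1 := by
      rw [← pow_add, ← ha, hr, two_mul]
    have hodd : Odd (2 * r - 1) := ⟨r - 1, by omega⟩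
    rw [hN, pow_mul] at hdetτ
    rcases mul_self_eq_one_iff.1 hsq1 with h1 | h1
    · rw [h1, one_pow] at hdetτ
      exact isComm_smul_of_twist D τ a hdetD hdetτ hτ
    · by_cases hne : (-1 : F) = 1
      · rw [h1, hne, one_pow] at hdetτ
        exact isComm_smul_of_twist D τ a hdetD hdetτ hτ
      · obtain ⟨α, β, hα, hαβ⟩ := hsq r (by omega) h1 hne
        rw [h1, hodd.neg_one_pow] at hdetτ
        have hw : (-1 : F) ^ (n - 1) = -1 := Odd.neg_one_pow (by
          rw [hr]
          exact hodd)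
        rw [hw] at h
        have hrr : n = r + r := by omega
        subst hrr
        obtain ⟨u, hu, hdetu⟩ := exists_even_unit h hn α β hα
        refine isComm_smul_of_twist D (u ∘ₗ τ) a hdetD ?_ (fun x => ?_)
        · rw [LinearMap.det_comp, hdetu, hdetτ, hαβ, h1]
          norm_num
        · rw [LinearMap.comp_apply, LinearMap.comp_apply, hτ, map_smul, hu]
  · -- odd
    have hN : (∑ i ∈ Finset.range n, i) = n * r := by
      rw [hr] at hsum ⊢
      have h2 : 2 * r + 1 - 1 = 2 * r := by omega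
      rw [h2] at hsum
      have : (2 * r + 1) * (2 * r) = ((2 * r + 1) * r) * 2 := by ring
      omega
    rw [hN, pow_mul, ha, one_pow] at hdetτ
    exact isComm_smul_of_twist D τ a hdetD hdetτ hτ

end Cyc

section Model

/-- Multiplication by `X` on `F[X]/(f)`. -/
theorem isCyc_model (f : F[X]) (hf : f.Monic) :
    IsCyc (mulF (Q f) (X : F[X])) f (Submodule.Quotient.mk (1 : F[X]) : Q f) := by
  have key : ∀ (g : F[X]) (v : Q f), aeval (mulF (Q f) (X : F[X])) g v = g • v := by
    intro g v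
    exact map_aeval_of_intertwine (M := Q f) (mulF (Q f) (X : F[X])) LinearMap.id (fun _ => rfl) g v
  have key2 : ∀ g : F[X], aeval (mulF (Q f) (X : F[X])) g (Submodule.Quotient.mk (1 : F[X]) : Q f) =
      Submodule.Quotient.mk g := by
    intro g
    rw [key, ← Submodule.Quotient.mk_smul, smul_eq_mul, mul_one]
  refine ⟨hf, (finrank_Q f).symm, ?_, fun x => ?_⟩
  · rw [key2, Submodule.Quotient.mk_eq_zero]
    exact Submodule.mem_span_singleton_self f
  · obtain ⟨g, rfl⟩ := Submodule.Quotient.mk_surjective _ x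
    exact ⟨g, key2 g⟩

end Model

/-- Scalars of determinant one are commutators over a finite field. -/
theorem isComm_smul [Fintype F] {V : Type v} [AddCommGroup V] [Module F V] [FiniteDimensional F V]
    (a : F) (hn : 0 < finrank F V) (ha : a ^ finrank F V = 1) :
    IsComm (a • LinearMap.id : V →ₗ[F] V) := by
  classical
  set n := finrank F V with hndef
  let f : F[X] := X ^ n - C ((-1) ^ (n - 1))
  have hf : f.Monic := monic_X_pow_sub_C _ (by omega)
  haveI : FiniteDimensional F (Q f) := Q_finite_of_ne hf.ne_zero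
  have hfr : finrank F (Q f) = n := by
    rw [finrank_Q]
    exact natDegree_X_pow_sub_C
  have ha0 : a ≠ 0 := by
    intro h0
    rw [h0, zero_pow (by omega)] at ha
    exact zero_ne_one ha
  have hsq : ∀ m, n = m + m → a ^ m = -1 → (-1 : F) ≠ 1 → ∃ α β : F, α ≠ 0 ∧ α ^ 2 + β ^ 2 = a := by
    intro m _ _ hne
    have hchar : ringChar F ≠ 2 := by
      intro h2
      haveI : CharP F 2 := ringChar.of_eq h2
      exact hne (CharTwo.neg_eq 1)
    obtain ⟨α, β, hαβ⟩ := FiniteField.exists_root_sum_quadratic (R := F) (f := X ^ 2 - C a) (g := X ^ 2)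
      (degree_X_pow_sub_C (by decide) _) (degree_X_pow 2) (FiniteField.odd_card_of_char_ne_two hchar)
    simp only [eval_sub, eval_pow, eval_X, eval_C] at hαβ
    have hs : α ^ 2 + β ^ 2 = a := by linear_combination hαβ
    by_cases hα : α = 0
    · refine ⟨β, α, ?_, by rw [add_comm]; exact hs⟩
      intro hβ
      rw [hα, hβ] at hs
      apply ha0
      rw [← hs]
      ring
    · exact ⟨α, β, hα, hs⟩
  have hmain := isComm_smul_of_cyc (isCyc_model f hf) hfr hn a ha hsq
  refine hmain.of_conj (LinearEquiv.ofFinrankEq (Q f) V hfr) fun x => ?_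
  simp

end Cfsg.Agent.Lib.Linalg.Lev
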